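import Cfsg.Agent.E7P.Kf.Kill

/-!
# S5932: irreducibility (helper48)

* `unst_cob` : the space of the coboundaries is unstable if a coboundary jumps;
* `Sit.irr_tor` : `A` does not lie in a parabolic subgroup `P_μ` with `dμ` not central, if `g^A` is central;
* `Sit.irr_odd` : for odd `p` and `g^A = 0`, `A` lies in no proper parabolic subgroup.
-/

set_option autoImplicit false
set_option maxRecDepth 100000

namespace Cfsg.Agent.E7P

open Cfsg Cfsg.Lie Matrix Module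
open Cfsg.Agent.ChevalleyStructure.RootVec
open Cfsg.Agent.H943.E7V.Block (D1 rho)
open Cfsg.Agent.R2.T1 Cfsg.Agent.E7P.Kf
open Cfsg.Agent.R2.H9.E6 (pq pq_surjective)

universe u v

namespace Kf

variable {K : Type u} [Field K]

section
variable {I : Type*} [Fintype I] [DecidableEq I] {c : I → Fin 7 → ℤ} {R : Gh K →* Matrix I I K}

/-- the coboundary maps -/
noncomputable def cob (R : Gh K →* Matrix I I K) {Λ : Type*} (ψ : Λ → Gh K) (a : Λ) : (I → K) →ₗ[K] (I → K) :=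
  toLin' (R (ψ a) - 1)

theorem cob_apply {Λ : Type*} (ψ : Λ → Gh K) (a : Λ) (w : I → K) : cob R ψ a w = R (ψ a) *ᵥ w - w := by
  rw [cob, toLin'_apply, sub_mulVec, one_mulVec]

theorem mulVec_inv (R : Gh K →* Matrix I I K) (g : Gh K) (w : I → K) : R g⁻¹ *ᵥ (R g *ᵥ w) = w := by
  rw [mulVec_mulVec, ← map_mul, inv_mul_cancel, map_one, one_mulVec]

theorem mulVec_inv' (R : Gh K →* Matrix I I K) (g : Gh K) (w : I → K) : R g *ᵥ (R g⁻¹ *ᵥ w) = w := by
  rw [mulVec_mulVec, ← map_mul, mul_inv_cancel, map_one, one_mulVec]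

theorem mulVec_mul (R : Gh K →* Matrix I I K) (g h : Gh K) (w : I → K) : R (g * h) *ᵥ w = R g *ᵥ (R h *ᵥ w) := by
  rw [mulVec_mulVec, map_mul]

theorem unst_cob (h : WRep c R) {Λ : Type*} [Finite Λ] (ψ : Λ → Gh K) {g : Gh K} {l : E}
    (hP : ∀ a, g⁻¹ * ψ a * g ∈ Pl K l) (P : I → Prop) [DecidablePred P] (N : Submodule K (I → K))
    (hN : ∀ y, ∀ w ∈ N, R y *ᵥ w = w) (hfix : ∀ w, (∀ a, R (ψ a) *ᵥ w = w) → w ∈ N)
    (hsp : ∀ w : I → K, ∃ n ∈ N, ∀ i, P i → w i = n i) (hdisj : ∀ n ∈ N, (∀ i, P i → n i = 0) → n = 0)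
    {x0 : I → K} (hx0 : ∀ i, P i → x0 i = 0) {j0 : I} (hj0 : x0 j0 ≠ 0) {ε : ℝ} (hε : 0 < ε)
    (hjump : ∀ y ∈ Pl K l, ∀ i, (R y *ᵥ x0 - x0) i ≠ 0 → bf l (cv (c j0)) + ε ≤ bf l (cv (c i)))
    (hsum : 0 ≤ ∑ i : {i // ¬ P i}, bf l (cv (c i))) :
    Unst (fun i : {i // ¬ P i} → I => ∑ t, c (i t)) (powR _ R) (PX {i // ¬ P i} (cob R ψ)) := by
  have hli : LinearIndependent K fun i : {i // ¬ P i} => (Pi.single i.1 1 : I → K) := by
    have h1 := (Pi.basisFun K I).linearIndependent.comp (Subtype.val : {i // ¬ P i} → I) Subtype.val_injective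
    have h2 : (Pi.basisFun K I) ∘ (Subtype.val : {i // ¬ P i} → I) = fun i => Pi.single i.1 1 :=
      funext fun i => Pi.basisFun_apply K I i.1
    rwa [h2] at h1
  refine unst_PX (PX_ne (Submodule.span K (Set.range fun i : {i // ¬ P i} => (Pi.single i.1 1 : I → K)))
    (finrank_span_eq_card hli) fun w hw h0 => ?_) g l fun b m i hd => ?_
  · refine hdisj w (hfix w fun a => ?_) fun i hi => ?_
    · have h1 := h0 a
      rwa [cob_apply, sub_eq_zero] at h1
    · clear h0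
      induction hw using Submodule.span_induction with
      | mem x hx =>
        obtain ⟨j, rfl⟩ := hx
        exact Pi.single_eq_of_ne (fun e : i = j.1 => j.2 (e ▸ hi)) _
      | zero => rfl
      | add x y _ _ hx hy => rw [Pi.add_apply, hx, hy, add_zero]
      | smul a x _ hx => rw [Pi.smul_apply, hx, smul_zero]
  have hj0' : ¬ P j0 := fun h => hj0 (hx0 j0 h)
  let b0 : {i // ¬ P i} → I → K := fun i => if i.1 = j0 then x0 else Pi.single i.1 1
  let n : {i // ¬ P i} → ℝ := fun i => bf l (cv (c i)) + if i.1 = j0 then ε else 0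
  let f : {i // ¬ P i} → (I → K) →ₗ[K] K := fun t => LinearMap.proj (i t) ∘ₗ toLin' (R g⁻¹) ∘ₗ cob R ψ (m t)
  have hf : ∀ t w, f t (R g *ᵥ w) = (R (g⁻¹ * ψ (m t) * g) *ᵥ w - w) (i t) := by
    intro t w
    show (R g⁻¹ *ᵥ cob R ψ (m t) (R g *ᵥ w)) (i t) = _
    rw [cob_apply, mulVec_sub, mulVec_inv, mulVec_mul, mulVec_mul]
  have h1 := sum_le_of_det f b (fun s => R g *ᵥ b0 s) N (fun t w hw => by
    rw [← hN g w hw, hf, hN _ w hw, sub_self]; rfl) (fun w => ?_) n (fun t => bf l (cv (c (i t)))) (fun t s hts => ?_) hd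
  · refine lt_of_lt_of_le ?_ h1
    rw [Finset.sum_add_distrib, Finset.sum_eq_single (⟨j0, hj0'⟩ : {i // ¬ P i}) (f := fun i => if i.1 = j0 then ε else 0)
      (fun j _ hj => if_neg fun e => hj (Subtype.ext e)) (fun h => absurd (Finset.mem_univ _) h), if_pos rfl]
    linarith
  · obtain ⟨n0, hn0, h2⟩ := hsp (R g⁻¹ *ᵥ w)
    set v := R g⁻¹ *ᵥ w - n0 with hv
    have h3 : v ∈ Submodule.span K (Set.range b0) := by
      have h4 : x0 ∈ Submodule.span K (Set.range b0) := Submodule.subset_span ⟨⟨j0, hj0'⟩, if_pos rfl⟩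
      have h5 : v - (v j0 / x0 j0) • x0 ∈ Submodule.span K (Set.range b0) := by
        rw [pi_eq_sum_univ' (v - (v j0 / x0 j0) • x0)]
        refine Submodule.sum_mem _ fun j _ => ?_
        by_cases hj : P j
        · rw [Pi.sub_apply, Pi.smul_apply, hx0 j hj, hv, Pi.sub_apply, h2 j hj, sub_self, smul_zero, sub_zero, zero_smul]
          exact zero_mem _
        by_cases hj' : j = j0
        · rw [hj', Pi.sub_apply, Pi.smul_apply, smul_eq_mul, div_mul_cancel₀ _ hj0, sub_self, zero_smul]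
          exact zero_mem _
        · exact Submodule.smul_mem _ _ (Submodule.subset_span ⟨⟨j, hj⟩, if_neg hj'⟩)
      have h6 := add_mem h5 (Submodule.smul_mem _ (v j0 / x0 j0) h4)
      rwa [sub_add_cancel] at h6
    have h4 : w = R g *ᵥ v + n0 := by rw [hv, mulVec_sub, mulVec_inv', hN g n0 hn0, sub_add_cancel]
    rw [h4]
    refine Submodule.add_mem_sup ?_ hn0
    have h5 := Submodule.mem_map_of_mem (f := toLin' (R g)) h3
    rw [Submodule.map_span, ← Set.range_comp] at h5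
    exact h5
  · rw [hf] at hts
    by_cases hs : s.1 = j0
    · have e1 : b0 s = x0 := if_pos hs
      have e2 : n s = bf l (cv (c j0)) + ε := by
        show bf l (cv (c s)) + (if s.1 = j0 then ε else 0) = _
        rw [if_pos hs, hs]
      rw [e1] at hts
      rw [e2]
      exact hjump _ (hP _) _ hts
    · have e1 : b0 s = Pi.single s.1 1 := if_neg hs
      have e2 : n s = bf l (cv (c s)) := by
        show bf l (cv (c s)) + (if s.1 = j0 then ε else 0) = _
        rw [if_neg hs, add_zero]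
      rw [e1] at hts
      rw [e2]
      by_cases h6 : i t = s.1
      · rw [h6]
      · rw [Pi.sub_apply, Pi.single_eq_of_ne h6, sub_zero, mulVec_single_one] at hts
        exact h.tri (hP _) _ _ hts

end

/-- toral vectors -/
def tv (l : Fin 7 → K) : chevE7.Idx → K := Sum.elim l fun _ => 0

theorem tv_inl (l : Fin 7 → K) (i : Fin chevE7.rank) : tv l (Sum.inl i) = l i := rfl

theorem tv_inr (l : Fin 7 → K) (r : Fin chevE7.nroots) : tv l (Sum.inr r) = 0 := rfl

/-- the value of a root -/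
def rval (r : ℕ) (x : chevE7.Idx → K) : K := ∑ i : Fin chevE7.rank, (chevE7.cartan i r : K) * x (Sum.inl i)

theorem adM_xs_tv {r : ℕ} (hr : r < 126) (t : K) (l : Fin 7 → K) :
    adM K (xs K r t) *ᵥ tv l = tv l - (t * rval r (tv l)) • Pi.single (Sum.inr ⟨r, hr⟩) 1 := by
  rw [adM_xs hr, add_mulVec, add_mulVec, one_mulVec, smul_mulVec, smul_mulVec]
  have h1 : QM K r *ᵥ tv l = 0 := by
    funext i
    rw [mulVec, dotProduct, Fintype.sum_sum_type]
    rcases i with i | u <;> simp [QM_ll, QM_rl, tv_inr]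
  have h2 : EM K r *ᵥ tv l = - rval r (tv l) • Pi.single (Sum.inr ⟨r, hr⟩) 1 := by
    funext i
    rw [mulVec, dotProduct, Fintype.sum_sum_type]
    rcases i with i | u
    · simp [EM_ll, tv_inr]
    · simp only [EM_rl, tv_inr, mul_zero, Finset.sum_const_zero, add_zero, Pi.smul_apply, smul_eq_mul]
      by_cases h : u.val = r
      · have h3 : u = ⟨r, hr⟩ := Fin.ext h
        simp only [if_pos h]
        rw [h3, Pi.single_eq_same, mul_one, rval, ← Finset.sum_neg_distrib]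
        exact Finset.sum_congr rfl fun j _ => neg_mul _ _
      · simp only [if_neg h, zero_mul, Finset.sum_const_zero]
        rw [Pi.single_eq_of_ne fun e => h (congrArg Fin.val (Sum.inr_injective e)), mul_zero]
  rw [h1, h2, smul_zero, add_zero, smul_smul, mul_neg, neg_smul, sub_eq_add_neg]

theorem adM_Phi_tv (a : Fin chevE7.rank → Kˣ) (l : Fin 7 → K) : adM K (Phi K a) *ᵥ tv l = tv l := by
  funext i
  rw [ad_Phi, mulVec_diagonal]
  rcases i with i | r
  · exact one_mul _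
  · exact mul_zero _

theorem jump_tv {m : Fin 7 → ℤ} {l : Fin 7 → K} (hl : ∀ r < 126, pc r m = 0 → rval r (tv l) = 0) {y : Gh K}
    (hy : y ∈ Pl K (cv m)) : ∀ i, (adM K y *ᵥ tv l - tv l) i ≠ 0 → 1 ≤ bf (cv m) (cv (ac i)) := by
  refine Pl_induction (P := fun y => ∀ i, (adM K y *ᵥ tv l - tv l) i ≠ 0 → 1 ≤ bf (cv m) (cv (ac i))) ?_ ?_ ?_ ?_ hy
  · intro i hi
    rw [map_one, one_mulVec, sub_self] at hi
    exact absurd rfl hi
  · intro a b ha _ iha ihb i hi
    have e : adM K (a * b) *ᵥ tv l - tv l = adM K a *ᵥ (adM K b *ᵥ tv l - tv l) + (adM K a *ᵥ tv l - tv l) := by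
      rw [mulVec_mul, mulVec_sub]; abel
    rw [e, Pi.add_apply] at hi
    by_cases h1 : (adM K a *ᵥ tv l - tv l) i = 0
    · rw [h1, add_zero] at hi
      obtain ⟨j, h2, h3⟩ := exists_col hi
      exact (ihb j h3).trans (wrep_L.tri ha i j h2)
    · exact iha i h1
  · intro r hr h0 t i hi
    rw [adM_xs_tv hr, sub_sub_cancel_left, Pi.neg_apply, neg_ne_zero, Pi.smul_apply, smul_eq_mul] at hi
    have h1 : i = Sum.inr ⟨r, hr⟩ := by
      by_contra hne
      rw [Pi.single_eq_of_ne hne, mul_zero] at hi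
      exact hi rfl
    have h2 : pc r m ≠ 0 := fun h => by
      rw [hl r hr h, mul_zero, zero_mul] at hi
      exact hi rfl
    rw [bf_cv_rv m hr] at h0
    have h3 : (0 : ℤ) ≤ pc r m := by exact_mod_cast h0
    rw [h1]
    show 1 ≤ bf (cv m) (rv r)
    rw [bf_cv_rv m hr]
    exact_mod_cast (by omega : (1 : ℤ) ≤ pc r m)
  · intro a i hi
    rw [adM_Phi_tv, sub_self] at hi
    exact absurd rfl hi

theorem sum_ac : ∑ i, cv (ac i) = 0 := by
  rw [Fintype.sum_sum_type]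
  have h1 : ∑ r : Fin chevE7.nroots, cv (ac (Sum.inr r)) = ∑ r ∈ Finset.range 126, rv r :=
    Fin.sum_univ_eq_sum_range (fun r => rv r) 126
  have h2 : ∑ r ∈ Finset.range 126, rv r = - ∑ r ∈ Finset.range 126, rv r := by
    rw [← Finset.sum_neg_distrib, ← Finset.sum_range_reflect]
    refine Finset.sum_congr rfl fun r hr => ?_
    rw [← rv_neg (Finset.mem_range.1 hr)]
  have h3 : ∑ r ∈ Finset.range 126, rv r = 0 := by
    have h4 : (2 : ℝ) • ∑ r ∈ Finset.range 126, rv r = 0 := by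
      rw [two_smul]
      nth_rewrite 1 [h2]
      exact neg_add_cancel _
    exact (smul_eq_zero.1 h4).resolve_left two_ne_zero
  rw [h1, h3, add_zero]
  exact Finset.sum_eq_zero fun i _ => cv_zero

/-- the parabolic subgroups of the faces -/
theorem Pl_le_of_supp {β : E} (hβ : Dom β) {m : E} (hm : Dom m) (h : ∀ i, β i = 0 → m i = 0) : Pl K β ≤ Pl K m := by
  refine Pl_mono fun r hr h0 => ?_
  by_cases h63 : 63 ≤ r
  · exact hm.pos hr h63
  rw [bf_rv _ hr] at h0 ⊢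
  have h1 : ∀ i ∈ Finset.univ, β i * (rt chevE7 r i : ℝ) ≤ 0 := fun i _ => mul_nonpos_of_nonneg_of_nonpos (hβ i)
    (by exact_mod_cast (chk_pos r hr).2.2 (not_le.1 h63) i i.2)
  have h2 := (Finset.sum_eq_zero_iff_of_nonpos h1).1 (le_antisymm (Finset.sum_nonpos h1) h0)
  refine (Finset.sum_eq_zero fun i hi => ?_).ge
  rcases mul_eq_zero.1 (h2 i hi) with h3 | h3
  · rw [h i h3, zero_mul]
  · rw [h3, mul_zero]

end Kf

namespace Sit

variable {p a b : ℕ} {F : Type u} {K : Type v} {k : Type u} [Field F] [Fintype F] [Field K] [Fintype K] [Field k]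
  (S : Sit p a b F K k)

theorem k_ψ_mem (x : SpecialLinearGroup (Fin 2) K) : S.ψ x ∈ S.M :=
  ⟨S.ψ0 x, show ad F (S.ψ0 x) ∈ S.H by rw [S.lift]; exact S.max.le ⟨_, rfl⟩, rfl⟩

theorem k_σ_ψ (x : SpecialLinearGroup (Fin 2) K) : S.σ (S.ψ x) = S.ψ x := S.k_σ_M (S.k_ψ_mem x)

/-- `M` normalises `A` modulo the centre -/
theorem k_norm {m : Gh k} (hm : m ∈ S.M) (x : SpecialLinearGroup (Fin 2) K) :
    ∃ x', ad k (m * S.ψ x * m⁻¹) = ad k (S.ψ x') := by
  obtain ⟨m, hm, rfl⟩ := hm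
  obtain ⟨y, hy⟩ := S.max.norm _ hm _ ⟨pq x, rfl⟩
  obtain ⟨x', rfl⟩ := pq_surjective y
  refine ⟨x', ?_⟩
  have h1 : ad F (m * S.ψ0 x * m⁻¹) = ad F (S.ψ0 x') := by
    rw [map_mul, map_mul, map_inv, S.lift, S.lift, hy]
  have h2 : emb S.f m * S.ψ x * (emb S.f m)⁻¹ = emb S.f (m * S.ψ0 x * m⁻¹) := by
    rw [map_mul, map_mul, map_inv]; rfl
  rw [h2, ad_emb, h1, ← ad_emb]
  rfl

theorem k_norm_adM {m : Gh k} (hm : m ∈ S.M) (x : SpecialLinearGroup (Fin 2) K) :
    ∃ x', adM k m * adM k (S.ψ x) = adM k (S.ψ x') * adM k m := by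
  obtain ⟨x', h⟩ := S.k_norm hm x
  refine ⟨x', ?_⟩
  have h1 : adM k (m * S.ψ x * m⁻¹) = adM k (S.ψ x') := by rw [adM_apply, adM_apply, h]
  rw [← h1, ← map_mul, ← map_mul, inv_mul_cancel_right]

theorem k_sv_adM (g : Gh k) (w : chevE7.Idx → k) :
    (fun i => S.s ((adM k g *ᵥ w) i)) = adM k (S.σ g) *ᵥ fun i => S.s (w i) := by
  funext i
  rw [RingHom.map_mulVec, ← adM_emb]
  rfl

/-- **irreducibility** for the parabolic subgroups with a non-central toral element -/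
theorem irr_tor (P : chevE7.Idx → Prop) [DecidablePred P] (hPt : ∀ i, P i → ac i = 0) (N : Submodule k (chevE7.Idx → k))
    (hN : ∀ y, ∀ w ∈ N, adM k y *ᵥ w = w) (hfix : ∀ w, (∀ x, adM k (S.ψ x) *ᵥ w = w) → w ∈ N)
    (hsp : ∀ w : chevE7.Idx → k, ∃ n ∈ N, ∀ i, P i → w i = n i) (hdisj : ∀ n ∈ N, (∀ i, P i → n i = 0) → n = 0)
    {m : Fin 7 → ℤ} {l : Fin 7 → k} (hl : ∀ r < 126, pc r m = 0 → rval r (tv l) = 0) (hl0 : ∀ i, P i → tv l i = 0)
    (hl1 : l ≠ 0) {g : Gh k} (hg : ∀ x, g⁻¹ * S.ψ x * g ∈ Pl k (cv m)) : False := by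
  obtain ⟨j, hj⟩ := Function.ne_iff.1 hl1
  have hU := unst_cob wrep_L S.ψ hg P N hN hfix hsp hdisj hl0 (j0 := Sum.inl j) hj one_pos
    (fun y hy i hi => by
      show bf (cv m) (cv 0) + 1 ≤ _
      rw [cv_zero, map_zero, zero_add]
      exact jump_tv hl hy i hi) (by
      have h1 := congrArg (bf (cv m)) sum_ac
      rw [map_sum, map_zero, ← Fintype.sum_subtype_add_sum_subtype P, Finset.sum_eq_zero (fun i _ => by
        rw [hPt i i.2, cv_zero, map_zero]), zero_add] at h1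
      exact h1.ge)
  refine S.kill_unst (wrep_L.pow _) hU (fun y hy => ?_) ?_
  · choose π hπ using S.k_norm_adM hy
    exact PX_stab (fun w => adM k y *ᵥ w) π fun x w => by
      rw [cob_apply, cob_apply, mulVec_sub, mulVec_mulVec, mulVec_mulVec, hπ]
  · rintro _ ⟨w, x, rfl⟩
    refine ⟨fun s i => S.s (w s i), x, ?_⟩
    rw [map_mnr]
    congr 1
    funext t s
    rw [cob_apply, cob_apply, ← S.k_σ_ψ (x t), ← S.k_sv_adM, S.k_σ_ψ]
    funext i
    exact map_sub _ _ _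

/-- **irreducibility** in odd characteristic -/
theorem irr_odd (hp : p ≠ 2) (hfix : ∀ w, (∀ x, adM k (S.ψ x) *ᵥ w = w) → w = 0) {g : Gh k} {β : E} (h0 : β ≠ 0)
    (hβ : Dom β) (hg : ∀ x, g⁻¹ * S.ψ x * g ∈ Pl k β) : False := by
  obtain ⟨i, hi⟩ := Function.ne_iff.1 h0
  have := S.chark
  have h2 : (2 : k) ≠ 0 := fun h => hp ((Nat.prime_dvd_prime_iff_eq S.prime Nat.prime_two).1
    ((CharP.cast_eq_zero_iff k p 2).1 (by exact_mod_cast h)))
  have hr : ∀ r < 126, rval r (tv fun j : Fin 7 => ((iC i j : ℤ) : k)) = 2 * (rt chevE7 r i : k) := by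
    intro r hr
    have h1 := chk_iC r hr i i.2
    rw [sum7] at h1
    have h3 := congrArg (Int.cast : ℤ → k) h1
    push_cast at h3
    rw [← h3]
    exact Finset.sum_congr rfl fun j _ => mul_comm _ _
  refine S.irr_tor (fun _ => False) (fun _ h => h.elim) ⊥ (fun y w hw => by rw [hw, mulVec_zero]) hfix
    (fun w => ⟨0, zero_mem _, fun _ h => h.elim⟩) (fun n hn _ => hn) (m := Pi.single i 1)
    (l := fun j : Fin 7 => ((iC i j : ℤ) : k)) (fun r hr' h => ?_) (fun _ h => h.elim) (fun h => ?_) (g := g)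
    fun x => Pl_le_of_supp hβ (fun j => ?_) (fun j hj => ?_) (hg x)
  · rw [pc, Finset.sum_eq_single i (fun j _ hj => by rw [Pi.single_eq_of_ne hj, mul_zero])
      (fun h => absurd (Finset.mem_univ _) h), Pi.single_eq_same, mul_one] at h
    rw [hr r hr', h, Int.cast_zero, mul_zero]
  · have h3 := hr _ (simple_lt7 i i.2)
    rw [h, rt_simple i i.2 i i.2, if_pos rfl, Int.cast_one, mul_one] at h3
    apply h2
    rw [← h3]
    exact Finset.sum_eq_zero fun j _ => mul_zero _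
  · show (0 : ℝ) ≤ (((Pi.single i 1 : Fin 7 → ℤ) j : ℤ) : ℝ)
    rw [Pi.single_apply]
    split_ifs <;> simp
  · show (((Pi.single i 1 : Fin 7 → ℤ) j : ℤ) : ℝ) = 0
    rw [Pi.single_eq_of_ne (fun e : j = i => hi (by rw [← e]; exact hj)), Int.cast_zero]

end Sit

end Cfsg.Agent.E7P
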