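import Cfsg.Agent.E7P.Kf.Lang
import Cfsg.Agent.E7P.Defs
import Cfsg.Agent.R2.PX.Del
import Cfsg.Agent.Lib.AbelianFrobenius

/-!
# S5932: `KILL`, `NOP`, `FPF` (helper48)

* `Sit.kill` : `M` and the Frobenius map do not normalise a proper parabolic subgroup;
* `Sit.kill_unst`, `Sit.kill_sub` : no unstable set of vectors (subspace) is stable under `M` and the Frobenius map;
* `Sit.nop` : a `σ`-stable `p`-subgroup normalised by `M` is trivial;
* `Sit.fpf` : a `σ`-stable subgroup normalised by `M` without fixed points of `σ` modulo the centre has no element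
  of order `p`.
-/

set_option autoImplicit false
set_option maxRecDepth 100000

namespace Cfsg.Agent.E7P

open Cfsg Cfsg.Lie Matrix Module
open Cfsg.Agent.H943.E7V.Block (D1 rho)
open Cfsg.Agent.R2.T1 Cfsg.Agent.E7P.Kf
open Cfsg.Agent.R2.H9.E6 (MaxSimp pq psl_simple psl_noncomm simple_noncomm)
open scoped Pointwise

universe u v

namespace Kf

/-- invariant `p`-subgroups for an automorphism without fixed points modulo a central subgroup -/
theorem exists_inv_pgroup {Y : Type*} [Group Y] (D : Subgroup Y) [Finite D] (σ : Y →* Y) (hσi : Function.Injective σ)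
    (hσ : ∀ y ∈ D, σ y ∈ D) (hZ : ∀ z ∈ Subgroup.center Y, σ z ∈ Subgroup.center Y)
    (hfix : ∀ y ∈ D, y⁻¹ * σ y ∈ Subgroup.center Y → y ∈ Subgroup.center Y) {p : ℕ} (hp : p.Prime) {x : Y}
    (hx : x ∈ D) (hxp : x ^ p = 1) (hx1 : x ≠ 1) :
    ∃ R : Subgroup Y, R ≠ ⊥ ∧ IsPGroup p R ∧ (∀ y ∈ R, σ y ∈ R) ∧
      ∀ m, σ m = m → (∀ y ∈ D, m * y * m⁻¹ ∈ D) → ∀ y ∈ R, m * y * m⁻¹ ∈ R := by
  have : Fact p.Prime := ⟨hp⟩
  let Z : Subgroup D := (Subgroup.center Y).subgroupOf D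
  have hZn : Z.Normal := inferInstance
  -- endomorphisms of `Y` which preserve `D` and the centre
  have key : ∀ τ : Y →* Y, Function.Injective τ → (∀ y ∈ D, τ y ∈ D) →
      (∀ z ∈ Subgroup.center Y, τ z ∈ Subgroup.center Y) →
      ∃ φ : MulAut (D ⧸ Z), ∀ (y : D) (h : τ y ∈ D), φ (QuotientGroup.mk y) = QuotientGroup.mk ⟨τ y, h⟩ := by
    intro τ hi h1 h2
    let τ0 : D →* D := (τ.comp D.subtype).codRestrict D fun y => h1 y y.2
    have hs : Function.Surjective τ0 := Finite.surjective_of_injective fun a b h =>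
      Subtype.ext (hi (congrArg Subtype.val h))
    let τ1 : D ⧸ Z →* D ⧸ Z := QuotientGroup.map Z Z τ0 fun z hz => h2 z hz
    have hs1 : Function.Surjective τ1 := by
      intro q
      obtain ⟨y, rfl⟩ := QuotientGroup.mk_surjective q
      obtain ⟨y', rfl⟩ := hs y
      exact ⟨QuotientGroup.mk y', rfl⟩
    exact ⟨MulEquiv.ofBijective τ1 ⟨Finite.injective_iff_surjective.2 hs1, hs1⟩, fun y h => rfl⟩
  obtain ⟨φ, hφ⟩ := key σ hσi hσ hZ
  have hfree : ∀ q, φ q = q → q = 1 := by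
    intro q hq
    obtain ⟨y, rfl⟩ := QuotientGroup.mk_surjective q
    rw [hφ y (hσ y y.2), eq_comm, QuotientGroup.eq] at hq
    rw [QuotientGroup.eq_one_iff]
    exact hfix y y.2 hq
  obtain ⟨P, hP⟩ := Lib.AbelianFrobenius.exists_sylow_smul_eq (p := p) φ hfree
  let Pt : Subgroup D := (P : Subgroup (D ⧸ Z)).comap (QuotientGroup.mk' Z)
  have hmem : ∀ (ψ : MulAut (D ⧸ Z)), ψ • P = P → ∀ q ∈ (P : Subgroup (D ⧸ Z)), ψ q ∈ (P : Subgroup (D ⧸ Z)) := by
    intro ψ h q hq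
    have h1 : ψ • q ∈ ψ • (P : Subgroup (D ⧸ Z)) := Subgroup.smul_mem_pointwise_smul _ _ _ hq
    rw [← Sylow.pointwise_smul_def, h] at h1
    exact h1
  have hnil : Group.IsNilpotent Pt := by
    have h1 : Group.IsNilpotent (P : Subgroup (D ⧸ Z)) := P.isPGroup'.isNilpotent
    refine Subgroup.isNilpotent_of_ker_le_center ((QuotientGroup.mk' Z).subgroupComap (P : Subgroup (D ⧸ Z))) fun y hy => ?_
    have h2 : ((y : D) : D ⧸ Z) = 1 := congrArg Subtype.val hy
    rw [QuotientGroup.eq_one_iff] at h2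
    rw [Subgroup.mem_center_iff]
    intro g
    exact Subtype.ext (Subtype.ext (Subgroup.mem_center_iff.1 h2 _))
  obtain ⟨S⟩ : Nonempty (Sylow p Pt) := inferInstance
  have hSn : (S : Subgroup Pt).Normal := Sylow.normal_of_normalizerCondition Group.normalizerCondition_of_isNilpotent S
  have hSm : ∀ y : Pt, (∃ n, y ^ p ^ n = 1) → y ∈ (S : Subgroup Pt) := by
    rintro y ⟨n, hn⟩
    have h1 : IsPGroup p (Subgroup.zpowers y) := IsPGroup.of_card_dvd_pow (n := n) (by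
      rw [Nat.card_zpowers]; exact orderOf_dvd_of_pow_eq_one hn)
    obtain ⟨T, hT⟩ := h1.exists_le_sylow
    have := Sylow.unique_of_normal S hSn
    rw [Subsingleton.elim S T]
    exact hT (Subgroup.mem_zpowers y)
  let R : Subgroup Y := (((S : Subgroup Pt).map Pt.subtype).map D.subtype)
  have hR : ∀ y, y ∈ R ↔ ∃ h : y ∈ D, (⟨y, h⟩ : D) ∈ Pt ∧ ∃ n, y ^ p ^ n = 1 := by
    intro y
    constructor
    · rintro ⟨_, ⟨w, hw, rfl⟩, rfl⟩
      obtain ⟨n, hn⟩ := S.isPGroup' ⟨w, hw⟩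
      exact ⟨w.1.2, w.2, n, congrArg (fun t : (S : Subgroup Pt) => (((t : Pt) : D) : Y)) hn⟩
    · rintro ⟨h, h1, n, hn⟩
      exact ⟨⟨y, h⟩, ⟨⟨⟨y, h⟩, h1⟩, hSm _ ⟨n, Subtype.ext (Subtype.ext hn)⟩, rfl⟩, rfl⟩
  have hstab : ∀ (τ : Y →* Y) (h1 : ∀ y ∈ D, τ y ∈ D) (ψ : MulAut (D ⧸ Z)), ψ • P = P →
      (∀ (y : D) (h : τ y ∈ D), ψ (QuotientGroup.mk y) = QuotientGroup.mk ⟨τ y, h⟩) → ∀ y ∈ R, τ y ∈ R := by
    intro τ h1 ψ h2 h3 y hy
    obtain ⟨h, h4, n, hn⟩ := (hR y).1 hy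
    refine (hR _).2 ⟨h1 y h, ?_, n, by rw [← map_pow, hn, map_one]⟩
    have h5 := hmem ψ h2 _ h4
    rw [QuotientGroup.mk'_apply, h3 ⟨y, h⟩ (h1 y h)] at h5
    exact h5
  refine ⟨R, fun hbot => ?_, (S.isPGroup'.map _).map _, hstab σ hσ φ hP hφ, fun m hm hmD => ?_⟩
  · -- the order of `x` divides the order of `S`
    have h1 : p ∣ Nat.card D := by
      have h2 : orderOf (⟨x, hx⟩ : D) = p := orderOf_eq_prime (Subtype.ext hxp) fun h => hx1 (congrArg Subtype.val h)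
      rw [← h2]
      exact orderOf_dvd_natCard _
    have h3 : ¬ p ∣ Pt.index := by
      rw [Subgroup.index_comap_of_surjective _ (QuotientGroup.mk'_surjective Z)]
      exact P.not_dvd_index
    have h4 : p ∣ Nat.card Pt := by
      rw [← Pt.card_mul_index] at h1
      exact (hp.dvd_mul.1 h1).resolve_right h3
    have h5 := S.ne_bot_of_dvd_card h4
    apply h5
    rw [Subgroup.map_eq_bot_iff_of_injective _ D.subtype_injective,
      Subgroup.map_eq_bot_iff_of_injective _ Pt.subtype_injective] at hbot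
    exact hbot
  · obtain ⟨ψ, hψ⟩ := key (MulAut.conj m).toMonoidHom (MulAut.conj m).injective hmD (fun z hz => by
      show m * z * m⁻¹ ∈ _
      rw [Subgroup.mem_center_iff.1 hz m, mul_inv_cancel_right]
      exact hz)
    have hcomm : φ * ψ = ψ * φ := by
      ext q
      obtain ⟨y, rfl⟩ := QuotientGroup.mk_surjective q
      rw [MulAut.mul_apply, MulAut.mul_apply, hψ y (hmD y y.2), hφ y (hσ y y.2), hφ _ (hσ _ (hmD y y.2)),
        hψ _ (hmD _ (hσ y y.2))]
      congr 1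
      apply Subtype.ext
      show σ (m * y * m⁻¹) = m * σ y * m⁻¹
      rw [map_mul, map_mul, map_inv, hm]
    have h1 : φ • (ψ • P) = ψ • P := by rw [← mul_smul, hcomm, mul_smul, hP]
    exact hstab (MulAut.conj m).toMonoidHom hmD ψ (Lib.AbelianFrobenius.sylow_eq_of_smul_eq φ hfree h1 hP) hψ

end Kf

namespace Sit

variable {p a b : ℕ} {F : Type u} {K : Type v} {k : Type u} [Field F] [Fintype F] [Field K] [Fintype K] [Field k]
  (S : Sit p a b F K k)

theorem k_frob (t : k) : S.s t = t ^ p ^ b := by rw [S.frob, Nat.card_eq_fintype_card, S.cardF]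

include S in
theorem k_four : 4 ≤ Fintype.card K := by
  rw [S.cardK]
  have := S.eleven
  omega

theorem k_σ_emb (x : Gh F) : S.σ (emb S.f x) = emb S.f x := emb_frob S.f S.s S.frob x

theorem k_σ_M {m : Gh k} (hm : m ∈ S.M) : S.σ m = m := by
  obtain ⟨x, -, rfl⟩ := hm
  exact S.k_σ_emb x

theorem k_desc {z : Gh k} (hz : S.σ z = z) : ∃ z0, emb S.f z0 = z :=
  have := S.closed
  exists_of_emb_eq S.f S.s S.frob hz

/-- maximality in the simply connected group -/
theorem k_max {T : Subgroup (Gh F)} (h : S.M0 ≤ T) : T = S.M0 ∨ T = ⊤ := by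
  have hker : (ad F).ker ≤ T := fun g hg => h (by
    show ad F g ∈ S.H
    rw [hg]; exact one_mem _)
  have h1 : S.H ≤ T.map (ad F) := by
    intro y hy
    obtain ⟨g, rfl⟩ := ad_surjective y
    exact ⟨g, h hy, rfl⟩
  have h2 : (T.map (ad F)).comap (ad F) = T := Subgroup.comap_map_eq_self hker
  rcases eq_or_lt_of_le h1 with h3 | h3
  · left
    rw [← h2, ← h3]
    rfl
  · right
    rw [← h2, S.max.coatom.2 _ h3, Subgroup.comap_top]

/-- normal `p`-subgroups of `M0` -/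
theorem k_op {Q : Subgroup (Gh F)} (hQ : IsPGroup p Q) (hle : Q ≤ S.M0) (hn : ∀ m ∈ S.M0, ∀ x ∈ Q, m * x * m⁻¹ ∈ Q) :
    Q ≤ (ad F).ker := by
  by_contra hne
  have : Fact p.Prime := ⟨S.prime⟩
  have h1 : S.φ.range ≤ Q.map (ad F) := by
    refine S.max.min _ ?_ ?_ ?_
    · rintro _ ⟨x, hx, rfl⟩
      exact hle hx
    · rintro h hh _ ⟨x, hx, rfl⟩
      obtain ⟨m, rfl⟩ := ad_surjective h
      exact ⟨_, hn m hh x hx, by rw [map_mul, map_mul, map_inv]⟩
    · rwa [Ne, Subgroup.map_eq_bot_iff]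
  have h2 : IsPGroup p (ProjectiveSpecialLinearGroup (Fin 2) K) :=
    ((hQ.map (ad F)).to_le h1).of_injective S.φ.rangeRestrict (by
      intro x y h
      exact S.max.inj (congrArg Subtype.val h))
  have hs := psl_simple S.k_four
  have h3 := h2.center_nontrivial
  rw [simple_noncomm (psl_noncomm S.k_four)] at h3
  exact not_subsingleton _ (inferInstance : Subsingleton (⊥ : Subgroup (ProjectiveSpecialLinearGroup (Fin 2) K)))

/-- **KILL** -/
theorem kill {g : Gh k} {β : E} (h0 : β ≠ 0) (hβ : Dom β) (hM : ∀ m ∈ S.M, g⁻¹ * m * g ∈ Pl k β)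
    (hσ : g⁻¹ * S.σ g ∈ Pl k β) : False := by
  have := S.closed
  have := S.chark
  obtain ⟨y, hy, z, hz, e⟩ := lang_Pl S.prime S.hb S.k_frob hσ
  set g' := g * y with hg'
  have hM' : ∀ m ∈ S.M, g'⁻¹ * m * g' ∈ Pl k β := by
    intro m hm
    have h1 : g'⁻¹ * m * g' = y⁻¹ * (g⁻¹ * m * g) * y := by rw [hg']; group
    rw [h1]
    exact mul_mem (mul_mem (inv_mem hy) (hM m hm)) hy
  have hfix : ∀ r, ∃ x0, g'⁻¹ * emb S.f x0 * g' = xs k r 1 := by
    intro r
    obtain ⟨x0, h⟩ := S.k_desc (z := g' * xs k r 1 * g'⁻¹) (by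
      show emb S.s _ = _
      rw [map_mul, map_mul, map_inv, e, emb_xs, map_one, mul_assoc g' z, ← Subgroup.mem_center_iff.1 hz]
      group)
    exact ⟨x0, by rw [h]; group⟩
  let c : Gh F →* Gh k := (MulAut.conj g'⁻¹).toMonoidHom.comp (emb S.f)
  have hc : ∀ x, c x = g'⁻¹ * emb S.f x * g' := fun x => by
    show g'⁻¹ * emb S.f x * g'⁻¹⁻¹ = _
    rw [inv_inv]
  have hci : Function.Injective c := (MulAut.conj g'⁻¹).injective.comp (emb_injective S.f)
  have h1 : S.M0 ≤ (Pl k β).comap c := fun m hm => by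
    rw [Subgroup.mem_comap, hc]
    exact hM' _ ⟨m, hm, rfl⟩
  have htop := hβ.top_pos h0
  rcases S.k_max h1 with h2 | h2
  · have h3 := S.k_op (Q := (Ul k β).comap c) ((isPGroup_Ul S.prime β).comap_of_injective c hci)
      (fun x hx => by rw [← h2]; exact hx.1) (fun m hm x hx => by
        rw [Subgroup.mem_comap, map_mul, map_mul, map_inv]
        exact Ul_conj (h1 hm) hx)
    obtain ⟨x0, hx0⟩ := hfix 125
    have h4 : x0 ∈ Subgroup.center (Gh F) := by
      rw [← ker_ad]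
      refine h3 ?_
      rw [Subgroup.mem_comap, hc, hx0]
      exact xs_mem_Ul (by norm_num) htop 1
    obtain ⟨x1, hx1⟩ := hfix 0
    have h5 : xs k 125 1 * xs k 0 1 = xs k 0 1 * xs k 125 1 := by
      rw [← hx0, ← hx1, ← hc, ← hc, ← map_mul, ← map_mul, Subgroup.mem_center_iff.1 h4]
    have h6 := congrArg (rho k) h5
    rw [map_mul, map_mul, rho_xs' (by norm_num), rho_xs' (by norm_num), one_smul, one_smul] at h6
    have h7 : NM k 125 * NM k (125 - 125) - NM k (125 - 125) * NM k 125 = 0 := by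
      rw [Nat.sub_self]
      have e1 : ∀ A B : Matrix D1 D1 k, A * B - B * A = (1 + A) * (1 + B) - (1 + B) * (1 + A) := fun A B => by
        noncomm_ring
      rw [e1, h6, sub_self]
    rw [R2.PX.NM_comm_neg (by norm_num)] at h7
    have h8 := R2.PX.Hd_NM (F := k) (r := 125) (by norm_num)
    rw [h7, zero_mul] at h8
    obtain ⟨i, j, hij⟩ := exists_NM_ne (K := k) (r := 125) (by norm_num)
    exact hij (by rw [← h8]; rfl)
  · obtain ⟨x1, hx1⟩ := hfix 0
    have h3 : x1 ∈ (Pl k β).comap c := by rw [h2]; trivial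
    rw [Subgroup.mem_comap, hc, hx1] at h3
    have h4 := nonneg_of_xs_mem (by norm_num) one_ne_zero h3
    have h5 := rv_neg (r := 125) (by norm_num)
    rw [Nat.sub_self] at h5
    rw [h5, map_neg] at h4
    linarith

theorem k_iter (n : ℕ) (t : k) : (S.s ^ n) t = t ^ p ^ (b * n) := by
  induction n with
  | zero => simp
  | succ n ih => rw [pow_succ', RingHom.mul_def, RingHom.comp_apply, ih, S.k_frob, ← pow_mul, ← pow_add, Nat.mul_succ]

theorem k_pow_fix {t : k} {N : ℕ} (h : t ^ p ^ N = t) : (S.s ^ N) t = t := by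
  rw [S.k_iter, mul_comm]
  have key : ∀ j, t ^ p ^ (N * j) = t := by
    intro j
    induction j with
    | zero => simp
    | succ j ih => rw [Nat.mul_succ, pow_add, pow_mul, ih, h]
  exact key b

/-- the Frobenius map is surjective on stable sets of vectors -/
theorem k_sv_surj {I : Type*} [Finite I] {X : Set (I → k)} (h : ∀ v ∈ X, (fun i => S.s (v i)) ∈ X) :
    ∀ v ∈ X, ∃ v' ∈ X, v = fun i => S.s (v' i) := by
  intro v hv
  obtain ⟨N, hN, h1⟩ := locFin S.alg (Set.finite_range v)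
  have h2 : ∀ n, (fun i => (S.s ^ n) (v i)) ∈ X := by
    intro n
    induction n with
    | zero => exact hv
    | succ n ih =>
      rw [pow_succ']
      exact h _ ih
  refine ⟨_, h2 (N - 1), funext fun i => ?_⟩
  have h3 := S.k_pow_fix (h1 _ ⟨i, rfl⟩)
  rw [show N = N - 1 + 1 by omega, pow_succ'] at h3
  exact h3.symm

section
variable {I : Type*} [Fintype I] [DecidableEq I] {c : I → Fin 7 → ℤ} {R : Gh k →* Matrix I I k}

/-- **KILL** for unstable sets of vectors -/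
theorem kill_unst (h : WRep c R) {X : Set (I → k)} (hX : Unst c R X) (hM : ∀ m ∈ S.M, ∀ v ∈ X, R m *ᵥ v ∈ X)
    (hσ : ∀ v ∈ X, (fun i => S.s (v i)) ∈ X) : False := by
  have := S.closed
  obtain ⟨g, β, h0, hβ, -, h1, h2⟩ := h.kempf hX
  exact S.kill h0 hβ (fun m hm => h1 m (hM _ (inv_mem hm))) (h2 S.s (S.k_sv_surj hσ))

/-- **KILL** for unstable subspaces -/
theorem kill_sub (h : WRep c R) {W : Submodule k (I → k)}
    (hX : Unst (fun i : Fin (finrank k W) → I => ∑ t, c (i t)) (powR _ R) (SX W))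
    (hM : ∀ m ∈ S.M, ∀ v ∈ W, R m *ᵥ v ∈ W) (hσ : ∀ v ∈ W, (fun i => S.s (v i)) ∈ W) : False := by
  have := S.closed
  obtain ⟨g, β, h0, hβ, -, h1, h2⟩ := (h.pow _).kempf hX
  exact S.kill h0 hβ (fun m hm => h1 m (SX_stab (hM _ (inv_mem hm))))
    (h2 S.s (SX_frob (S.k_sv_surj (X := (W : Set (I → k))) hσ)))

end

/-- **NOP** -/
theorem nop {R : Subgroup (Gh k)} (hR : IsPGroup p R) (hσ : ∀ x ∈ R, S.σ x ∈ R)
    (hM : ∀ m ∈ S.M, ∀ x ∈ R, m * x * m⁻¹ ∈ R) : R = ⊥ := by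
  have := S.closed
  have := S.chark
  by_contra hne
  obtain ⟨g, hg⟩ := exists_conj_tri S.prime S.alg hR
  have hc : ∀ y x : Gh k, rho k y * (rho k x - 1) * rho k y⁻¹ = rho k (y * x * y⁻¹) - 1 := fun y x => by
    rw [mul_sub, mul_one, sub_mul, ← map_mul, ← map_mul, ← map_mul, mul_inv_cancel, map_one]
  refine S.kill_unst wrep_V.endo (X := {v | ∃ x ∈ R, v = Kf.vec (rho k x - 1)}) ⟨?_, g, rho1, ?_⟩ ?_ ?_
  · obtain ⟨⟨x, hx⟩, hx1⟩ := (Subgroup.ne_bot_iff_exists_ne_one).1 hne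
    refine ⟨_, ⟨x, hx, rfl⟩, fun h0 => hx1 (Subtype.ext (rho_injective ?_))⟩
    rw [OneMemClass.coe_one, map_one, ← sub_eq_zero]
    ext i j
    exact congrFun h0 (i, j)
  · rintro _ ⟨x, hx, rfl⟩ i hi
    rw [endo_mulVec, hc, inv_inv] at hi
    have h1 := hg x hx i.1 i.2 hi
    rw [cv_add, cv_neg, map_add, map_neg]
    exact sub_pos.2 h1
  · rintro m hm _ ⟨x, hx, rfl⟩
    exact ⟨_, hM m hm x hx, by rw [endo_mulVec, hc]⟩
  · rintro _ ⟨x, hx, rfl⟩
    refine ⟨_, hσ x hx, funext fun i => ?_⟩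
    show S.s ((rho k x - 1) i.1 i.2) = (rho k (emb S.s x) - 1) i.1 i.2
    rw [rho_emb, Matrix.sub_apply, Matrix.sub_apply, map_sub, map_apply, one_apply, apply_ite S.s, map_one, map_zero]

theorem k_σ_pow (n : ℕ) (x : Gh k) : S.σ^[n] x = emb (S.s ^ n) x := by
  induction n with
  | zero => exact (emb_id x).symm
  | succ n ih =>
    rw [Function.iterate_succ_apply', ih, pow_succ', RingHom.mul_def, ← emb_comp]
    rfl

/-- finite sets are fixed by a power of the Frobenius map -/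
theorem k_exists_pow {T : Set (Gh k)} (hT : T.Finite) : ∃ N, 0 < N ∧ ∀ x ∈ T, emb (S.s ^ N) x = x := by
  obtain ⟨N, hN, h⟩ := locFin S.alg (hT.biUnion fun g _ => Set.finite_range fun x : D1 × D1 => rho k g x.1 x.2)
  refine ⟨N, hN, fun x hx => rho_injective ?_⟩
  rw [rho_emb]
  ext i j
  exact S.k_pow_fix (h _ (Set.mem_biUnion hx ⟨(i, j), rfl⟩))

theorem k_finite {N : ℕ} (hN : 0 < N) : {x : Gh k | emb (S.s ^ N) x = x}.Finite := by
  have : Fact p.Prime := ⟨S.prime⟩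
  have := S.chark
  have hf := finite_fixF (K := k) p (Nat.mul_pos S.hb hN)
  refine Set.Finite.of_finite_image (f := rho k) ?_ rho_injective.injOn
  refine (Set.finite_range fun A : Matrix D1 D1 (fixF (K := k) p (b * N)) => A.map Subtype.val).subset ?_
  rintro _ ⟨x, hx, rfl⟩
  refine ⟨Matrix.of fun i j => ⟨rho k x i j, ?_⟩, rfl⟩
  have h1 := congrFun (congrFun (rho_emb (S.s ^ N) x) i) j
  rw [hx, map_apply, S.k_iter] at h1
  exact h1.symm

theorem k_σ_center {z : Gh k} (hz : z ∈ Subgroup.center (Gh k)) : S.σ z = z := by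
  obtain ⟨c, hc, h⟩ := rho_center hz
  apply rho_injective
  show rho k (emb S.s z) = _
  have h1 : (c : k) * c = 1 := by rw [← Units.val_mul, hc, Units.val_one]
  have h2 : S.s c = c := by
    rcases mul_self_eq_one_iff.1 h1 with h3 | h3
    · rw [h3, map_one]
    · rw [h3, map_neg, map_one]
  rw [rho_emb, h, diagonal_map (map_zero _)]
  simp only [h2]

/-- **FPF** -/
theorem fpf {D : Subgroup (Gh k)} (hσ : ∀ x ∈ D, S.σ x ∈ D) (hM : ∀ m ∈ S.M, ∀ x ∈ D, m * x * m⁻¹ ∈ D)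
    (hfix : ∀ y ∈ D, y⁻¹ * S.σ y ∈ Subgroup.center (Gh k) → y ∈ Subgroup.center (Gh k)) {x : Gh k} (hx : x ∈ D)
    (hxp : x ^ p = 1) : x = 1 := by
  by_contra hx1
  obtain ⟨N, hN, h⟩ := S.k_exists_pow (Set.finite_singleton x)
  let D' : Subgroup (Gh k) := D ⊓ (emb (S.s ^ N)).eqLocus (MonoidHom.id _)
  have hfin : Finite D' := (S.k_finite hN).subset fun y hy => hy.2
  have hcomm : ∀ y, emb (S.s ^ N) (S.σ y) = S.σ (emb (S.s ^ N) y) := fun y => by
    rw [← S.k_σ_pow, ← S.k_σ_pow, ← Function.iterate_succ_apply, Function.iterate_succ_apply']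
  have hMf : ∀ m ∈ S.M, emb (S.s ^ N) m = m := fun m hm => by
    rw [← S.k_σ_pow]
    exact Function.iterate_fixed (S.k_σ_M hm) N
  obtain ⟨R, h1, h2, h3, h4⟩ := exists_inv_pgroup D' S.σ (emb_injective S.s)
    (fun y hy => ⟨hσ y hy.1, by
      have h5 : emb (S.s ^ N) y = y := hy.2
      show emb (S.s ^ N) (S.σ y) = S.σ y
      rw [hcomm, h5]⟩)
    (fun z hz => by rw [S.k_σ_center hz]; exact hz) (fun y hy => hfix y hy.1) S.prime
    (show x ∈ D' from ⟨hx, h x rfl⟩) hxp hx1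
  refine h1 (S.nop h2 h3 fun m hm => h4 m (S.k_σ_M hm) fun y hy => ⟨hM m hm y hy.1, ?_⟩)
  have h5 : emb (S.s ^ N) y = y := hy.2
  show emb (S.s ^ N) (m * y * m⁻¹) = m * y * m⁻¹
  rw [map_mul, map_mul, map_inv, h5, hMf m hm]

/-- **FPF**, second form: the exception is an element `y` with `σ y = -y` -/
theorem fpf' {D : Subgroup (Gh k)} (hσ : ∀ x ∈ D, S.σ x ∈ D) (hM : ∀ m ∈ S.M, ∀ x ∈ D, m * x * m⁻¹ ∈ D)
    (hfix : ∀ y ∈ D, S.σ y = y → y ∈ Subgroup.center (Gh k)) {x : Gh k} (hx : x ∈ D) (hxp : x ^ p = 1) :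
    x = 1 ∨ (p ≠ 2 ∧ ∃ y ∈ D, y ∉ Subgroup.center (Gh k) ∧ V k (S.σ y) = - V k y) := by
  by_cases h : ∀ y ∈ D, y⁻¹ * S.σ y ∈ Subgroup.center (Gh k) → y ∈ Subgroup.center (Gh k)
  · exact Or.inl (S.fpf hσ hM h hx hxp)
  right
  push Not at h
  obtain ⟨y, hy, h1, h2⟩ := h
  have h3 : S.σ y = y * (y⁻¹ * S.σ y) := by group
  have h4 : V k (y⁻¹ * S.σ y) ≠ 1 := by
    intro h5
    rw [faithful h5, mul_one] at h3
    exact h2 (hfix y hy h3)
  have h5 := (V_center h1).resolve_left h4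
  refine ⟨?_, y, hy, h2, by rw [h3, map_mul, h5]; exact mul_neg_one (α := Module.End k (D1 → k)) _⟩
  rintro rfl
  have := S.chark
  apply h4
  rw [h5]
  exact LinearMap.ext fun v => funext fun i => CharTwo.neg_eq (v i)

end Sit

end Cfsg.Agent.E7P
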