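import Cfsg.Agent.E7P.Kf.Rep
import Cfsg.Agent.R2.T1.Five.Beta
import Cfsg.Agent.R2.T1.Inf.Desc
import Cfsg.Agent.BpExc.LangFr
import Cfsg.Agent.S2154
import Cfsg.Agent.R2.PX.Tr4

/-!
# S5932: Lang's theorem for groups generated by root groups, unipotent radicals, `p`-subgroups (helper48)

* `GS K S`, `lang_GS`, `lang_Pl`;
* `Ul K l` : the elements of `Pl K l` which act trivially on the graded module; `isPGroup_Ul`;
* `exists_conj_Ul` : a `p`-subgroup is conjugate to a group of unitriangular matrices.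
-/

set_option autoImplicit false
set_option maxRecDepth 100000

namespace Cfsg.Agent.E7P.Kf

open Cfsg Cfsg.Lie Matrix Module
open Cfsg.Agent.ChevalleyStructure Cfsg.Agent.ChevalleyStructure.Elts
open Cfsg.Agent.H943.E7V.Block (D1 rho)
open Cfsg.Agent.H944.E7Two (e7T)
open Cfsg.Agent.R2.T1

universe u
variable {K : Type u} [Field K]

variable (K) in
/-- the subgroup generated by a set of root groups -/
def GS (S : Set ℕ) : Subgroup (Gh K) := Subgroup.closure {g | ∃ r ∈ S, ∃ t : K, g = xs K r t}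

theorem xs_mem_GS {S : Set ℕ} {r : ℕ} (hr : r ∈ S) (t : K) : xs K r t ∈ GS K S :=
  Subgroup.subset_closure ⟨r, hr, t, rfl⟩

theorem GS_le {S : Set ℕ} {T : Subgroup (Gh K)} (h : ∀ r ∈ S, ∀ t, xs K r t ∈ T) : GS K S ≤ T := by
  unfold GS
  rw [Subgroup.closure_le]
  rintro _ ⟨r, hr, t, rfl⟩
  exact h r hr t

theorem GS_induction {S : Set ℕ} {P : Gh K → Prop} (h1 : P 1)
    (hm : ∀ a b, a ∈ GS K S → b ∈ GS K S → P a → P b → P (a * b))
    (hx : ∀ r ∈ S, ∀ t, P (xs K r t)) {g : Gh K} (hg : g ∈ GS K S) : P g := by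
  unfold GS at hg
  induction hg using Subgroup.closure_induction'' with
  | mem y hy =>
    obtain ⟨r, hr, t, rfl⟩ := hy
    exact hx r hr t
  | inv_mem y hy =>
    obtain ⟨r, hr, t, rfl⟩ := hy
    rw [xs_inv]; exact hx r hr _
  | one => exact h1
  | mul a b ha hb iha ihb => exact hm a b ha hb iha ihb

theorem Phi_conj_GS {S : Set ℕ} (hS : ∀ r ∈ S, r < 126) (a : Fin chevE7.rank → Kˣ) {g : Gh K} (hg : g ∈ GS K S) :
    Phi K a * g * (Phi K a)⁻¹ ∈ GS K S := by
  refine GS_induction (P := fun g => Phi K a * g * (Phi K a)⁻¹ ∈ GS K S) ?_ ?_ ?_ hg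
  · rw [mul_one, mul_inv_cancel]; exact one_mem _
  · intro x y _ _ hx hy
    have e : Phi K a * (x * y) * (Phi K a)⁻¹ = Phi K a * x * (Phi K a)⁻¹ * (Phi K a * y * (Phi K a)⁻¹) := by group
    rw [e]; exact mul_mem hx hy
  · intro r hr t
    rw [Five.Phi_xs a (hS r hr)]
    exact xs_mem_GS hr _

theorem ad_xs (r : ℕ) (t : K) : ((ad K (xs K r t) : ↥(chevE7.group K)) : GL chevE7.Idx K) = xG e7T.inList r t :=
  StTheta.thetaGL_stGen e7T.inList r t

/-- **Lang's theorem** for the groups generated by root groups -/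
theorem lang_GS [IsAlgClosed K] {p e : ℕ} (hp : p.Prime) [CharP K p] (he : 0 < e) {s : K →+* K}
    (hs : ∀ t, s t = t ^ p ^ e) {S : Set ℕ} (J : Gh K)
    (hJ : ∀ r ∈ S, ∃ r' ∈ S, ∀ t, ∃ u, J * xs K r t * J⁻¹ = xs K r' u) {m : Gh K} (hm : m ∈ GS K S) :
    ∃ y ∈ GS K S, ∃ z ∈ Subgroup.center (Gh K), m = y⁻¹ * (J * emb s y * J⁻¹) * z := by
  have : Fact p.Prime := ⟨hp⟩
  let θ : Gh K →* GL chevE7.Idx K := (chevE7.group K).subtype.comp (ad K)
  have hθ : ∀ r t, θ (xs K r t) = xG e7T.inList r t := ad_xs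
  have hmap : (GS K S).map θ = LangThm.MM e7T.inList S K := by
    unfold GS LangThm.MM
    rw [MonoidHom.map_closure]
    congr 1
    ext g
    constructor
    · rintro ⟨_, ⟨r, hr, t, rfl⟩, rfl⟩
      exact ⟨r, hr, t, hθ r t⟩
    · rintro ⟨r, hr, t, rfl⟩
      exact ⟨_, ⟨r, hr, t, rfl⟩, hθ r t⟩
  obtain ⟨y, hy, h⟩ := LangThm.lang_chev' e7T.inList p e he S (θ J) (fun r hr => by
    obtain ⟨r', hr', h⟩ := hJ r hr
    refine ⟨r', hr', fun t => ?_⟩
    obtain ⟨u, hu⟩ := h t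
    exact ⟨u, by rw [← hθ, ← hθ, ← hu, map_mul, map_mul, map_inv]⟩) (m := θ m) (hmap ▸ ⟨m, hm, rfl⟩)
  rw [← hmap] at hy
  obtain ⟨y, hy, rfl⟩ := hy
  have hf : LangThm.frob p e (θ y) = θ (emb s y) := by
    have h1 : s = iterateFrobenius K p e := RingHom.ext fun t => by rw [hs]; rfl
    apply Units.ext
    rw [h1]
    exact (ad_emb_mat _ y).symm
  refine ⟨y, hy, (y⁻¹ * (J * emb s y * J⁻¹))⁻¹ * m, ?_, by group⟩
  rw [← ker_ad, MonoidHom.mem_ker]
  apply Subtype.ext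
  show θ _ = 1
  rw [map_mul, h, hf, map_inv, map_mul, map_mul, map_mul, map_inv, map_inv, inv_mul_cancel]

theorem lang_Phi [IsAlgClosed K] {q : ℕ} (hq : 1 < q) {s : K →+* K} (hs : ∀ t, s t = t ^ q)
    (a : Fin chevE7.rank → Kˣ) : ∃ b, Phi K a = (Phi K b)⁻¹ * emb s (Phi K b) := by
  have h1 : ∀ i, ∃ x : Kˣ, x ^ (q - 1) = a i := by
    intro i
    obtain ⟨x, hx⟩ := IsAlgClosed.exists_pow_nat_eq ((a i : Kˣ) : K) (show 0 < q - 1 by omega)
    have h0 : x ≠ 0 := by
      rintro rfl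
      rw [zero_pow (by omega)] at hx
      exact (a i).ne_zero hx.symm
    exact ⟨Units.mk0 x h0, Units.ext hx⟩
  choose b hb using h1
  refine ⟨b, ?_⟩
  rw [emb_Phi, ← map_inv, ← map_mul]
  congr 1
  funext i
  rw [Pi.mul_apply, Pi.inv_apply, ← hb, eq_inv_mul_iff_mul_eq, ← pow_succ', Nat.sub_add_cancel hq.le]
  apply Units.ext
  rw [Units.val_pow_eq_pow_val, ← hs]
  rfl

theorem Pl_decomp {l : E} {g : Gh K} (hg : g ∈ Pl K l) :
    ∃ x ∈ GS K {r | r < 126 ∧ 0 ≤ bf l (rv r)}, ∃ a, g = x * Phi K a := by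
  refine Pl_induction (P := fun g => ∃ x ∈ GS K {r | r < 126 ∧ 0 ≤ bf l (rv r)}, ∃ a, g = x * Phi K a) ?_ ?_ ?_ ?_ hg
  · exact ⟨1, one_mem _, 1, by rw [map_one, mul_one]⟩
  · rintro _ _ - - ⟨x, hx, a, rfl⟩ ⟨y, hy, b, rfl⟩
    exact ⟨_, mul_mem hx (Phi_conj_GS (fun r hr => hr.1) a hy), a * b, by rw [map_mul]; group⟩
  · intro r hr h t
    exact ⟨_, xs_mem_GS (show r ∈ {r | r < 126 ∧ 0 ≤ bf l (rv r)} from ⟨hr, h⟩) t, 1, by rw [map_one, mul_one]⟩
  · intro a
    exact ⟨1, one_mem _, a, by rw [one_mul]⟩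

theorem GS_le_Pl (l : E) : GS K {r | r < 126 ∧ 0 ≤ bf l (rv r)} ≤ Pl K l :=
  GS_le fun _ hr t => xs_mem_Pl hr.1 hr.2 t

/-- **Lang's theorem** for the parabolic subgroups -/
theorem lang_Pl [IsAlgClosed K] {p e : ℕ} (hp : p.Prime) [CharP K p] (he : 0 < e) {s : K →+* K}
    (hs : ∀ t, s t = t ^ p ^ e) {l : E} {g : Gh K} (hg : g⁻¹ * emb s g ∈ Pl K l) :
    ∃ y ∈ Pl K l, ∃ z ∈ Subgroup.center (Gh K), emb s (g * y) = g * y * z := by
  obtain ⟨x, hx, a, hxa⟩ := Pl_decomp hg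
  obtain ⟨b, hb⟩ := lang_Phi (Nat.one_lt_pow he.ne' hp.one_lt) hs a
  obtain ⟨y, hy, z, hz, e⟩ := lang_GS hp he hs 1 (fun r hr => ⟨r, hr, fun t => ⟨t, by group⟩⟩)
    (Phi_conj_GS (fun r hr => hr.1) b hx)
  refine ⟨(y * Phi K b)⁻¹, inv_mem (mul_mem (GS_le_Pl l hy) (Phi_mem_Pl l b)), z, hz, ?_⟩
  have h1 : emb s g = g * (x * Phi K a) := by rw [← hxa]; group
  have h2 : x = (Phi K b)⁻¹ * (y⁻¹ * emb s y * z) * Phi K b := by
    rw [one_mul, inv_one, mul_one] at e
    rw [← e]; group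
  have h3 := Subgroup.mem_center_iff.1 hz
  rw [map_mul, map_inv, map_mul, h1, hb, h2]
  calc _ = g * (Phi K b)⁻¹ * y⁻¹ * (emb s y * z) * (emb s y)⁻¹ := by group
    _ = _ := by rw [h3]; group

/-! ### the unipotent radical -/

section
variable {I : Type*} [Fintype I] [DecidableEq I]

theorem pow_eq_zero_of_tri (lv : I → ℝ) {N : Matrix I I K} (h : ∀ i j, N i j ≠ 0 → lv j < lv i) :
    N ^ Fintype.card I = 0 := by
  classical
  let ρ : I → ℕ := fun i => (Finset.univ.filter fun k => lv k < lv i).card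
  have hρ : ∀ i j, lv j < lv i → ρ j < ρ i := by
    intro i j hij
    refine Finset.card_lt_card ⟨fun k hk => ?_, fun hsub => ?_⟩
    · rw [Finset.mem_filter] at hk ⊢
      exact ⟨hk.1, hk.2.trans hij⟩
    · have h1 := hsub (Finset.mem_filter.2 ⟨Finset.mem_univ j, hij⟩)
      exact lt_irrefl _ (Finset.mem_filter.1 h1).2
  have hlt : ∀ i, ρ i < Fintype.card I := by
    intro i
    refine Finset.card_lt_card ⟨Finset.subset_univ _, fun hsub => ?_⟩
    exact lt_irrefl _ (Finset.mem_filter.1 (hsub (Finset.mem_univ i))).2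
  have key : ∀ n i j, (N ^ n) i j ≠ 0 → ρ j + n ≤ ρ i := by
    intro n
    induction n with
    | zero =>
      intro i j hij
      have h1 : i = j := by
        by_contra hne
        rw [pow_zero, one_apply_ne hne] at hij
        exact hij rfl
      rw [h1, add_zero]
    | succ n ih =>
      intro i j hij
      rw [pow_succ, mul_apply] at hij
      obtain ⟨k, -, hk⟩ := Finset.exists_ne_zero_of_sum_ne_zero hij
      have h1 := ih i k (left_ne_zero_of_mul hk)
      have h2 := hρ k j (h k j (right_ne_zero_of_mul hk))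
      omega
  ext i j
  by_contra hne
  have h1 := key _ i j hne
  have h2 := hlt i
  omega

omit [DecidableEq I] in
theorem exists_mid' {A B : Matrix I I K} {i j : I} (h : (A * B) i j ≠ 0) : ∃ k, A i k ≠ 0 ∧ B k j ≠ 0 := by
  rw [mul_apply] at h
  obtain ⟨k, -, hk⟩ := Finset.exists_ne_zero_of_sum_ne_zero h
  exact ⟨k, left_ne_zero_of_mul hk, right_ne_zero_of_mul hk⟩

end

/-- strictly triangular matrices -/
def STri (l : E) (N : Matrix D1 D1 K) : Prop := ∀ i j, N i j ≠ 0 → bf l (wv j) < bf l (wv i)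

theorem STri.add {l : E} {A B : Matrix D1 D1 K} (hA : STri l A) (hB : STri l B) : STri l (A + B) := by
  intro i j h
  rw [Matrix.add_apply] at h
  by_cases h1 : A i j = 0
  · rw [h1, zero_add] at h
    exact hB i j h
  · exact hA i j h1

theorem STri.zero (l : E) : STri l (0 : Matrix D1 D1 K) := fun _ _ h => absurd rfl h

theorem STri.smul {l : E} {A : Matrix D1 D1 K} (hA : STri l A) (c : K) : STri l (c • A) := fun i j h =>
  hA i j (right_ne_zero_of_mul h)

theorem STri.left {l : E} {A : Matrix D1 D1 K} (hA : STri l A) {g : Gh K} (hg : g ∈ Pl K l) : STri l (rho K g * A) := by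
  intro i j h
  obtain ⟨k, h1, h2⟩ := exists_mid' h
  exact (hA k j h2).trans_le (wrep_V.tri hg i k h1)

theorem STri.right {l : E} {A : Matrix D1 D1 K} (hA : STri l A) {g : Gh K} (hg : g ∈ Pl K l) : STri l (A * rho K g) := by
  intro i j h
  obtain ⟨k, h1, h2⟩ := exists_mid' h
  exact (wrep_V.tri hg k j h2).trans_lt (hA i k h1)

variable (K) in
/-- the unipotent radical -/
def Ul (l : E) : Subgroup (Gh K) where
  carrier := {g | g ∈ Pl K l ∧ STri l (rho K g - 1)}
  one_mem' := ⟨one_mem _, by rw [map_one, sub_self]; exact STri.zero l⟩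
  mul_mem' := by
    rintro a b ⟨ha, ha'⟩ ⟨hb, hb'⟩
    refine ⟨mul_mem ha hb, ?_⟩
    have e : rho K (a * b) - 1 = rho K a * (rho K b - 1) + (rho K a - 1) := by
      rw [map_mul, mul_sub, mul_one]; abel
    rw [e]
    exact (hb'.left ha).add ha'
  inv_mem' := by
    rintro a ⟨ha, ha'⟩
    refine ⟨inv_mem ha, ?_⟩
    have e : rho K a⁻¹ - 1 = (-1 : K) • (rho K a⁻¹ * (rho K a - 1)) := by
      rw [mul_sub, mul_one, ← map_mul, inv_mul_cancel, map_one, neg_one_smul, neg_sub]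
    rw [e]
    exact (ha'.left (inv_mem ha)).smul _

theorem Ul_conj {l : E} {g x : Gh K} (hg : g ∈ Pl K l) (hx : x ∈ Ul K l) : g * x * g⁻¹ ∈ Ul K l := by
  refine ⟨mul_mem (mul_mem hg hx.1) (inv_mem hg), ?_⟩
  have e : rho K (g * x * g⁻¹) - 1 = rho K g * (rho K x - 1) * rho K g⁻¹ := by
    rw [mul_sub, mul_one, sub_mul, ← map_mul, ← map_mul, ← map_mul, mul_inv_cancel, map_one]
  rw [e]
  exact (hx.2.left hg).right (inv_mem hg)

theorem NM_ne {r : ℕ} (hr : r < 126) {i j : D1} (h : NM K r i j ≠ 0) : wv i = wv j + rv r := by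
  have h1 : nz r i j ≠ 0 := by
    intro h0
    apply h
    show ((nz r i j : ℤ) : K) = 0
    rw [h0, Int.cast_zero]
  obtain ⟨e, he, -⟩ := nz_ne h1
  rw [wv, wc_add hr he, cv_add]
  rfl

theorem xs_mem_Ul {l : E} {r : ℕ} (hr : r < 126) (h : 0 < bf l (rv r)) (t : K) : xs K r t ∈ Ul K l := by
  refine ⟨xs_mem_Pl hr h.le t, ?_⟩
  rw [rho_xs' hr, add_sub_cancel_left]
  refine STri.smul (fun i j hij => ?_) t
  rw [NM_ne hr hij, map_add]
  linarith

theorem card_D1 : Fintype.card D1 = 56 := by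
  have h := finrank_V (F := ℚ)
  rwa [finrank_fintype_fun_eq_card] at h

theorem pow_eq_one_of_STri {p : ℕ} (hp : p.Prime) [CharP K p] {l : E} {g : Gh K} (h : STri l (rho K g - 1)) :
    g ^ p ^ 56 = 1 := by
  have : Fact p.Prime := ⟨hp⟩
  have : Nonempty D1 := ⟨topv⟩
  apply rho_injective
  have h1 := pow_eq_zero_of_tri (fun i => bf l (wv i)) h
  rw [card_D1] at h1
  have h2 : (rho K g - 1) ^ p ^ 56 = 0 :=
    pow_eq_zero_of_le (Nat.lt_pow_self hp.one_lt).le h1
  rw [sub_pow_char_pow_of_commute _ _ (Commute.one_right _), one_pow, sub_eq_zero] at h2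
  rw [map_pow, h2, map_one]

theorem isPGroup_Ul {p : ℕ} (hp : p.Prime) [CharP K p] (l : E) : IsPGroup p (Ul K l) := fun g =>
  ⟨56, Subtype.ext (pow_eq_one_of_STri hp g.2.2)⟩

theorem exists_NM_ne {r : ℕ} (hr : r < 126) : ∃ i j, NM K r i j ≠ 0 := by
  obtain ⟨a, b, c, h1, h2⟩ := R2.PX.Tr.exists_entry hr
  refine ⟨a, b, ?_⟩
  show ((nz r a b : ℤ) : K) ≠ 0
  rw [nz_some h1, if_pos rfl]
  exact cast_ne h2

theorem nonneg_of_xs_mem {l : E} {r : ℕ} (hr : r < 126) {t : K} (ht : t ≠ 0) (h : xs K r t ∈ Pl K l) :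
    0 ≤ bf l (rv r) := by
  obtain ⟨i, j, hij⟩ := exists_NM_ne (K := K) hr
  have h1 := NM_ne hr hij
  by_cases h2 : i = j
  · rw [h2, left_eq_add] at h1
    rw [h1, map_zero]
  · have h3 := wrep_V.tri h i j (by
      rw [rho_xs' hr, Matrix.add_apply, one_apply_ne h2, zero_add]
      exact mul_ne_zero ht hij)
    have h4 : bf l (wv j) ≤ bf l (wv i) := h3
    rw [h1, map_add] at h4
    linarith

/-! ### `p`-subgroups -/

theorem locFin {p : ℕ} (hA : BpExc.TorAll.HAlg p K) {S : Set K} (hS : S.Finite) :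
    ∃ N, 0 < N ∧ ∀ t ∈ S, t ^ p ^ N = t := by
  have key : ∀ (t : K) (m k : ℕ), t ^ p ^ m = t → t ^ p ^ (m * k) = t := by
    intro t m k h
    induction k with
    | zero => simp
    | succ k ih => rw [Nat.mul_succ, pow_add, pow_mul, ih, h]
  induction S, hS using Set.Finite.induction_on with
  | empty => exact ⟨1, one_pos, fun _ h => absurd h (Set.notMem_empty _)⟩
  | @insert a S _ _ ih =>
    obtain ⟨N, hN, h⟩ := ih
    obtain ⟨m, hm, ha⟩ := hA a
    refine ⟨m * N, Nat.mul_pos hm hN, ?_⟩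
    rintro t (rfl | ht)
    · exact key _ m N ha
    · rw [mul_comm]; exact key _ N m (h t ht)

/-- the finite subfields -/
def fixF (p : ℕ) [Fact p.Prime] [CharP K p] (N : ℕ) : Subfield K := (iterateFrobenius K p N).eqLocusField (RingHom.id K)

theorem finite_fixF (p : ℕ) [Fact p.Prime] [CharP K p] {N : ℕ} (hN : 0 < N) : Finite (fixF (K := K) p N) := by
  classical
  have h1 : 1 < p ^ N := Nat.one_lt_pow hN.ne' (Fact.out : p.Prime).one_lt
  have h2 : (Polynomial.X ^ p ^ N - Polynomial.X : Polynomial K) ≠ 0 := FiniteField.X_pow_card_sub_X_ne_zero K h1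
  refine Set.Finite.subset (Polynomial.X ^ p ^ N - Polynomial.X : Polynomial K).roots.toFinset.finite_toSet fun t ht => ?_
  have h3 : t ^ p ^ N = t := ht
  rw [Finset.mem_coe, Multiset.mem_toFinset, Polynomial.mem_roots h2, Polynomial.IsRoot.def]
  simp [h3]

/-- finite sets of elements are defined over a finite field -/
theorem exists_fin [IsAlgClosed K] {p : ℕ} [Fact p.Prime] [CharP K p] (hA : BpExc.TorAll.HAlg p K) {S : Set (Gh K)}
    (hS : S.Finite) : ∃ N, 0 < N ∧ ∀ g ∈ S, ∃ g0, emb (fixF (K := K) p N).subtype g0 = g := by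
  obtain ⟨N, hN, h⟩ := locFin hA
    (hS.biUnion fun g _ => Set.finite_range fun x : D1 × D1 => rho K g x.1 x.2)
  have := finite_fixF (K := K) p hN
  refine ⟨N, hN, fun g hg => ?_⟩
  obtain ⟨g0, h0, -⟩ := exists_of_rho (fixF (K := K) p N).subtype (z := g)
    (A := Matrix.of fun i j => ⟨rho K g i j, h _ (Set.mem_biUnion hg ⟨(i, j), rfl⟩)⟩) rfl
  exact ⟨g0, h0⟩

theorem rv_ne {r : ℕ} (hr : r < 126) : rv r ≠ 0 := by
  intro h5
  have h7 : ∀ r < 126, ∃ j < 7, chevE7.cartan j r ≠ 0 := by decide +kernel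
  obtain ⟨j, hj, h8⟩ := h7 r hr
  have h9 : ((chevE7.cartan j r : ℤ) : ℝ) = 0 := congrFun h5 ⟨j, hj⟩
  exact h8 (by exact_mod_cast h9)

/-- the half sum of the positive roots -/
def rho1 : E := fun _ => 1

theorem rho1_pos {r : ℕ} (hr : r < 126) (h : chevE7.IsPosRoot r) : 0 < bf rho1 (rv r) := by
  have h63 := (chk_pos r hr).1.2 h
  have h1 : Dom rho1 := fun _ => zero_le_one
  refine (h1.pos hr h63).lt_of_ne fun h0 => ?_
  rw [bf_rv _ hr] at h0
  have h2 := (Finset.sum_eq_zero_iff_of_nonneg fun i _ => mul_nonneg (h1 i)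
    (show (0 : ℝ) ≤ (RootVec.rt chevE7 r i : ℝ) by exact_mod_cast (chk_pos r hr).2.1 h63 i i.2)).1 h0.symm
  have h3 : bf (rv r) (rv r) = 0 := by
    rw [bf_rv _ hr]
    refine Finset.sum_eq_zero fun i hi => ?_
    have h4 := h2 i hi
    rw [show rho1 i = 1 from rfl, one_mul] at h4
    rw [h4, mul_zero]
  exact (bf_pd.pos _ (rv_ne hr)).ne' h3

theorem exists_conj_fin {F : Type u} [Field F] [Finite F] {p : ℕ} [Fact p.Prime] [CharP F p] {R : Subgroup (Gh F)}
    (hR : IsPGroup p R) : ∃ g : Gh F, ∀ x ∈ R, STri rho1 (rho F (g⁻¹ * x * g) - 1) := by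
  have hp : p.Prime := Fact.out
  let θ : Gh F →* GL chevE7.Idx F := (chevE7.group F).subtype.comp (ad F)
  have hcen : ∀ z ∈ Subgroup.center (Gh F), ∀ u ∈ Ul F rho1, (∃ n, (u * z) ^ p ^ n = 1) → z = 1 := by
    rintro z hz u hu ⟨n, hn⟩
    have h1 : Commute u z := Subgroup.mem_center_iff.1 hz u
    have h2 := pow_eq_one_of_STri hp hu.2
    have h3 : z ^ p ^ (n + 56) = 1 := by
      have h4 : (u * z) ^ p ^ (n + 56) = 1 := by rw [pow_add, pow_mul, hn, one_pow]
      rwa [h1.mul_pow, add_comm, pow_add, pow_mul, h2, one_pow, one_mul, ← pow_add, add_comm] at h4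
    rcases V_center hz with h | h
    · exact faithful h
    · apply faithful
      rcases hp.eq_two_or_odd' with h5 | h5
      · subst h5
        rw [h]
        refine LinearMap.ext fun v => funext fun i => ?_
        exact CharTwo.neg_eq (v i)
      · have h6 := congrArg (V F) h3
        rw [map_pow, h, map_one] at h6
        rw [h]
        exact (Odd.neg_one_pow (α := Module.End F (D1 → F)) (h5.pow (n := n + 56))).symm.trans h6
  by_cases hne : R.map θ = ⊥
  · refine ⟨1, fun x hx => ?_⟩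
    have h1 : θ x = 1 := by
      have h2 : θ x ∈ R.map θ := ⟨x, hx, rfl⟩
      rwa [hne, Subgroup.mem_bot] at h2
    have h3 : x ∈ Subgroup.center (Gh F) := by
      rw [← ker_ad, MonoidHom.mem_ker]
      exact Subtype.ext h1
    obtain ⟨n, hn⟩ := hR ⟨x, hx⟩
    have h4 := hcen x h3 1 (one_mem _) ⟨n, by rw [one_mul]; exact congrArg Subtype.val hn⟩
    rw [h4, mul_one, inv_mul_cancel, map_one, sub_self]
    exact STri.zero _
  obtain ⟨g, hg, J, -, -, h⟩ := S2154.main e7T p (R.map θ) (by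
    rintro _ ⟨x, -, rfl⟩
    exact (ad F x).2) (hR.map θ) hne
  obtain ⟨g, hg'⟩ := ad_surjective (K := F) ⟨g, hg⟩
  have hg2 : θ g = _ := congrArg Subtype.val hg'
  have hU : chevE7.unipotentRadical F J ≤ (Ul F rho1).map θ := by
    unfold ChevalleyDatum.unipotentRadical
    rw [Subgroup.closure_le]
    rintro y ⟨r, t, hr, -, hy⟩
    refine ⟨xs F r t, xs_mem_Ul hr.1 (rho1_pos hr.1 hr) t, Units.ext ?_⟩
    rw [hy]
    exact StTheta.theta_stGen e7T.inList r t
  refine ⟨g, fun x hx => ?_⟩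
  obtain ⟨y, hy, e⟩ := h ⟨x, hx, rfl⟩
  obtain ⟨u, hu, rfl⟩ := hU hy
  have h1 : u⁻¹ * (g⁻¹ * x * g) ∈ Subgroup.center (Gh F) := by
    rw [← ker_ad, MonoidHom.mem_ker]
    apply Subtype.ext
    show θ _ = 1
    rw [map_mul, map_mul, map_mul, map_inv, map_inv, ← e, hg2]
    show _ * (_ * (_ * θ u * _) * _) = 1
    group
  obtain ⟨n, hn⟩ := hR ⟨x, hx⟩
  have hn' : x ^ p ^ n = 1 := congrArg Subtype.val hn
  have h2 := hcen _ h1 u hu ⟨n, by
    rw [mul_inv_cancel_left]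
    have h3 := conj_pow (a := g⁻¹) (b := x) (i := p ^ n)
    rw [inv_inv] at h3
    rw [h3, hn', mul_one, inv_mul_cancel]⟩
  rw [inv_mul_eq_one] at h2
  rw [← h2]
  exact hu.2

/-- **`p`-subgroups are unitriangular** -/
theorem exists_conj_tri [IsAlgClosed K] {p : ℕ} (hp : p.Prime) [CharP K p] (hA : BpExc.TorAll.HAlg p K)
    {R : Subgroup (Gh K)} (hR : IsPGroup p R) : ∃ g : Gh K, ∀ x ∈ R, STri rho1 (rho K (g⁻¹ * x * g) - 1) := by
  have : Fact p.Prime := ⟨hp⟩
  obtain ⟨T, hT, hsp, hli⟩ := exists_linearIndependent K ((fun x => rho K x - 1) '' (R : Set (Gh K)))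
  have hTf : T.Finite := hli.setFinite
  choose x hx hx' using fun t : T => hT t.2
  have : Finite T := hTf
  obtain ⟨N, hN, h⟩ := exists_fin hA (Set.finite_range x)
  have := finite_fixF (K := K) p hN
  let f := (fixF (K := K) p N).subtype
  obtain ⟨g, hg⟩ := exists_conj_fin (R := R.comap (emb f)) (hR.comap_of_injective _ (emb_injective f))
  refine ⟨emb f g, fun y hy => ?_⟩
  have h1 : ∀ A ∈ Submodule.span K T, STri rho1 (rho K (emb f g)⁻¹ * A * rho K (emb f g)) := by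
    intro A hA
    induction hA using Submodule.span_induction with
    | mem A hA =>
      obtain ⟨x0, h0⟩ := h (x ⟨A, hA⟩) ⟨_, rfl⟩
      have h2 := hg x0 (by rw [Subgroup.mem_comap, h0]; exact hx _)
      have h3 : rho K (emb f g)⁻¹ * A * rho K (emb f g) = (rho _ (g⁻¹ * x0 * g) - 1).map f := by
        have h4 : A = rho K (x ⟨A, hA⟩) - 1 := (hx' ⟨A, hA⟩).symm
        have h5 : emb f (g⁻¹ * x0 * g) = (emb f g)⁻¹ * x ⟨A, hA⟩ * emb f g := by
          rw [map_mul, map_mul, map_inv, ← h0]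
        rw [Matrix.map_sub _ (map_sub f), Matrix.map_one _ (map_zero f) (map_one f), ← rho_emb, h5]
        generalize x ⟨A, hA⟩ = w at h4
        rw [h4, mul_sub, mul_one, sub_mul, ← map_mul, ← map_mul, ← map_mul, inv_mul_cancel, map_one]
      rw [h3]
      intro i j hij
      exact h2 i j fun h0 => hij (by rw [map_apply, h0, map_zero])
    | zero => rw [mul_zero, zero_mul]; exact STri.zero _
    | add A B _ _ hA hB => rw [mul_add, add_mul]; exact hA.add hB
    | smul c A _ hA => rw [mul_smul_comm, smul_mul_assoc]; exact hA.smul c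
  have h2 := h1 (rho K y - 1) (by rw [hsp]; exact Submodule.subset_span ⟨y, hy, rfl⟩)
  rwa [mul_sub, mul_one, sub_mul, ← map_mul, ← map_mul, ← map_mul, inv_mul_cancel, map_one] at h2

end Cfsg.Agent.E7P.Kf
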