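import Cfsg.Agent.E7P.Kf.Par
import Cfsg.Agent.R2.T1.Inf.LMat

/-!
# S5932: constructions of weighted representations (helper48)

* `wrep_L` : the adjoint module; `WRep.dual`, `WRep.tensor`, `WRep.endo`, `WRep.pow`;
* `PX φ d` : the minors of a family `φ` of linear maps; `PX_stab`, `PX_frob`, `PX_ne`;
* `unst_PX`, `unst_sub` : criteria for instability.
-/

set_option autoImplicit false
set_option maxRecDepth 100000

namespace Cfsg.Agent.E7P.Kf

open Cfsg Cfsg.Lie Matrix Module
open Cfsg.Agent.ChevalleyStructure.RootVec Cfsg.Agent.ChevalleyStructure.RootVecTab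
open Cfsg.Agent.H943.E7V.Block (D1 rho)
open Cfsg.Agent.R2.T1

universe u
variable {K : Type u} [Field K]

/-! ### the adjoint module -/

theorem rc_eq {r : ℕ} (hr : r < 126) (i : Fin 7) :
    rc r i = ∑ j ∈ Finset.range 7, rt chevE7 r j * chevE7.cartan i (chevE7.simple j) :=
  cartan_eq_sum checked_E7 i.2 hr

theorem rc_add_of_rt {r s u : ℕ} (hr : r < 126) (hs : s < 126) (hu : u < 126)
    (h : ∀ j < 7, rt chevE7 u j = rt chevE7 s j + rt chevE7 r j) : rc u = rc s + rc r := by
  funext i
  rw [Pi.add_apply, rc_eq hr, rc_eq hs, rc_eq hu, ← Finset.sum_add_distrib]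
  refine Finset.sum_congr rfl fun j hj => ?_
  rw [h j (Finset.mem_range.1 hj), add_mul]

theorem chk_F7 : ((List.range 126).all fun r => (List.range 126).all fun s => (F7 r s).all fun x =>
    (List.range 7).all fun j => rt chevE7 x.1 j == rt chevE7 s j + rt chevE7 r j) = true := by decide +kernel

theorem cf_rc {r s u : ℕ} (hr : r < 126) (hs : s < 126) (hu : u < 126) (h : cf r s u ≠ 0) : rc u = rc s + rc r := by
  refine rc_add_of_rt hr hs hu fun j hj => ?_
  have h1 := List.all_eq_true.1 (List.all_eq_true.1 chk_F7 r (List.mem_range.2 hr)) s (List.mem_range.2 hs)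
  rw [cf_ne hr h, List.all_cons, List.all_nil, Bool.and_true] at h1
  exact beq_iff_eq.1 (List.all_eq_true.1 h1 j (List.mem_range.2 hj))

/-- the weights of the adjoint module -/
def ac : chevE7.Idx → Fin 7 → ℤ := Sum.elim (fun _ => 0) fun r : Fin chevE7.nroots => rc r

theorem ac_inl (i : Fin chevE7.rank) : ac (Sum.inl i) = 0 := rfl

theorem ac_inr (r : Fin chevE7.nroots) : ac (Sum.inr r) = rc r := rfl

theorem EM_wt {r : ℕ} (hr : r < 126) {i j : chevE7.Idx} (h : EM K r i j ≠ 0) : ac i = ac j + rc r := by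
  rcases i with i | u <;> rcases j with j | s
  · exact absurd (EM_ll r i j) h
  · rw [EM_lr] at h
    have h1 : s.val = 125 - r := by
      by_contra h1
      exact h (if_neg h1)
    rw [ac_inl, ac_inr, h1, rc_neg hr, neg_add_cancel]
  · rw [EM_rl] at h
    have h1 : u.val = r := by
      by_contra h1
      exact h (if_neg h1)
    rw [ac_inl, ac_inr, h1, zero_add]
  · rw [EM_rr] at h
    refine cf_rc hr s.2 u.2 fun h0 => h ?_
    rw [h0, Int.cast_zero]

theorem QM_wt {r : ℕ} (hr : r < 126) {i j : chevE7.Idx} (h : QM K r i j ≠ 0) : ac i = ac j + 2 • rc r := by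
  rcases i with i | u <;> rcases j with j | s
  · exact absurd (QM_ll r i j) h
  · exact absurd (QM_lr r i s) h
  · exact absurd (QM_rl r u j) h
  · rw [QM_rr] at h
    have h1 : s.val = 125 - r := by
      by_contra h1
      exact h (if_neg h1)
    have h2 : u.val = r := by
      by_contra h2
      rw [if_pos h1] at h
      exact h (if_neg h2)
    rw [ac_inr, ac_inr, h1, h2, rc_neg hr, two_smul, neg_add_cancel_left]

theorem adM_emb {K' : Type*} [Field K'] (f : K →+* K') (g : Gh K) : adM K' (emb f g) = (adM K g).map f := ad_emb_mat f g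

/-- the adjoint module -/
theorem wrep_L : WRep ac (adM K) where
  tor a := by
    rw [ad_Phi]
    congr 1
    funext i
    rcases i with i | r
    · rw [ac_inl, ch_zero]; rfl
    · rfl
  root r hr t i j hij := by
    rw [adM_xs hr] at hij
    by_cases h1 : EM K r i j = 0
    · by_cases h2 : QM K r i j = 0
      · refine ⟨0, ?_⟩
        rw [Matrix.add_apply, Matrix.add_apply, Matrix.smul_apply, Matrix.smul_apply, h1, h2, smul_zero, smul_zero,
          add_zero, add_zero] at hij
        have h3 : i = j := by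
          by_contra hne
          exact hij (one_apply_ne hne)
        rw [h3, zero_smul, add_zero]
      · exact ⟨2, QM_wt hr h2⟩
    · exact ⟨1, by rw [one_smul]; exact EM_wt hr h1⟩
  frob s g := adM_emb s g

theorem L_mulVec (g : Gh K) (x : chevE7.Idx → K) : L K g x = adM K g *ᵥ x := by rw [L_adM, toLin'_apply]

/-! ### duals and tensor products -/

section
variable {I J : Type*} [Fintype I] [DecidableEq I] [Fintype J] [DecidableEq J]

/-- the dual representation -/
def dualR (R : Gh K →* Matrix I I K) : Gh K →* Matrix I I K where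
  toFun g := (R g⁻¹)ᵀ
  map_one' := by rw [inv_one, map_one, transpose_one]
  map_mul' a b := by rw [_root_.mul_inv_rev, map_mul, transpose_mul]

theorem dualR_apply (R : Gh K →* Matrix I I K) (g : Gh K) : dualR R g = (R g⁻¹)ᵀ := rfl

/-- the tensor product -/
def tenR (R : Gh K →* Matrix I I K) (R' : Gh K →* Matrix J J K) : Gh K →* Matrix (I × J) (I × J) K where
  toFun g := kroneckerMap (· * ·) (R g) (R' g)
  map_one' := by rw [map_one, map_one, one_kronecker_one]
  map_mul' a b := by rw [map_mul, map_mul, mul_kronecker_mul]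

theorem tenR_apply (R : Gh K →* Matrix I I K) (R' : Gh K →* Matrix J J K) (g : Gh K) (x y : I × J) :
    tenR R R' g x y = R g x.1 y.1 * R' g x.2 y.2 := rfl

variable {c : I → Fin 7 → ℤ} {R : Gh K →* Matrix I I K} {c' : J → Fin 7 → ℤ} {R' : Gh K →* Matrix J J K}

theorem WRep.dual (h : WRep c R) : WRep (fun i => - c i) (dualR R) where
  tor a := by
    rw [dualR_apply, ← map_inv, h.tor, diagonal_transpose]
    congr 1
    funext i
    rw [ch_inv, ch_neg]
  root r hr t i j hij := by
    rw [dualR_apply, transpose_apply, xs_inv] at hij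
    obtain ⟨m, hm⟩ := h.root r hr _ j i hij
    exact ⟨m, by rw [hm]; abel⟩
  frob s g := by
    rw [dualR_apply, dualR_apply, ← map_inv, h.frob, transpose_map]

theorem WRep.tensor (h : WRep c R) (h' : WRep c' R') : WRep (fun x : I × J => c x.1 + c' x.2) (tenR R R') where
  tor a := by
    ext x y
    rw [tenR_apply, h.tor, h'.tor]
    by_cases hxy : x = y
    · subst hxy
      rw [diagonal_apply_eq, diagonal_apply_eq, diagonal_apply_eq, ch_add, Units.val_mul]
    · rw [diagonal_apply_ne _ hxy]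
      by_cases h1 : x.1 = y.1
      · rw [diagonal_apply_ne _ (fun h2 => hxy (Prod.ext h1 h2)), mul_zero]
      · rw [diagonal_apply_ne _ h1, zero_mul]
  root r hr t x y hxy := by
    rw [tenR_apply] at hxy
    obtain ⟨m, hm⟩ := h.root r hr t _ _ (left_ne_zero_of_mul hxy)
    obtain ⟨m', hm'⟩ := h'.root r hr t _ _ (right_ne_zero_of_mul hxy)
    exact ⟨m + m', by rw [hm, hm', add_smul]; abel⟩
  frob s g := by
    ext x y
    rw [tenR_apply, map_apply, tenR_apply, h.frob, h'.frob, map_mul]
    rfl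

/-- a matrix as a vector -/
def vec (A : Matrix I I K) : I × I → K := fun x => A x.1 x.2

theorem WRep.endo (h : WRep c R) : WRep (fun x : I × I => c x.1 + - c x.2) (tenR R (dualR R)) := h.tensor h.dual

theorem endo_mulVec (R : Gh K →* Matrix I I K) (g : Gh K) (A : Matrix I I K) :
    tenR R (dualR R) g *ᵥ vec A = vec (R g * A * R g⁻¹) := by
  funext x
  rw [mulVec, dotProduct, Fintype.sum_prod_type]
  show _ = (R g * A * R g⁻¹) x.1 x.2
  rw [mul_apply, Finset.sum_comm]
  refine Finset.sum_congr rfl fun b _ => ?_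
  rw [mul_apply, Finset.sum_mul]
  refine Finset.sum_congr rfl fun a _ => ?_
  show R g x.1 a * R g⁻¹ b x.2 * A a b = _
  ring

end

/-! ### tensor powers and minors -/

section
variable {I τ : Type*} [Fintype I] [DecidableEq I] [Fintype τ] [DecidableEq τ]

variable (τ) in
/-- the tensor power -/
def powR (R : Gh K →* Matrix I I K) : Gh K →* Matrix (τ → I) (τ → I) K where
  toFun g := Matrix.of fun i j => ∏ t, R g (i t) (j t)
  map_one' := by
    ext i j
    rw [of_apply, map_one]
    by_cases h : i = j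
    · subst h
      rw [one_apply_eq]
      exact Finset.prod_eq_one fun t _ => one_apply_eq _
    · rw [one_apply_ne h]
      obtain ⟨t, ht⟩ := Function.ne_iff.1 h
      exact Finset.prod_eq_zero (Finset.mem_univ t) (one_apply_ne ht)
  map_mul' a b := by
    ext i j
    rw [of_apply, mul_apply, map_mul]
    simp only [mul_apply, of_apply]
    rw [Finset.prod_univ_sum, Fintype.piFinset_univ]
    exact Finset.sum_congr rfl fun k _ => Finset.prod_mul_distrib

theorem powR_apply (R : Gh K →* Matrix I I K) (g : Gh K) (i j : τ → I) : powR τ R g i j = ∏ t, R g (i t) (j t) := rfl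

variable {c : I → Fin 7 → ℤ} {R : Gh K →* Matrix I I K}

variable (τ) in
theorem WRep.pow (h : WRep c R) : WRep (fun i : τ → I => ∑ t, c (i t)) (powR τ R) where
  tor a := by
    ext i j
    rw [powR_apply, h.tor]
    by_cases hij : i = j
    · subst hij
      rw [diagonal_apply_eq, ch_sum, Units.coe_prod]
      exact Finset.prod_congr rfl fun t _ => diagonal_apply_eq _ _
    · rw [diagonal_apply_ne _ hij]
      obtain ⟨t, ht⟩ := Function.ne_iff.1 hij
      exact Finset.prod_eq_zero (Finset.mem_univ t) (diagonal_apply_ne _ ht)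
  root r hr x i j hij := by
    rw [powR_apply, Finset.prod_ne_zero_iff] at hij
    choose m hm using fun t => h.root r hr x _ _ (hij t (Finset.mem_univ t))
    refine ⟨∑ t, m t, ?_⟩
    rw [Finset.sum_smul, ← Finset.sum_add_distrib]
    exact Finset.sum_congr rfl fun t _ => hm t
  frob s g := by
    ext i j
    rw [powR_apply, map_apply, powR_apply, map_prod, h.frob]
    rfl

/-- the minors of a family of vectors -/
noncomputable def mnr (A : τ → τ → I → K) : (τ → I) → K := fun i => det (Matrix.of fun t s => A t s (i t))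

theorem pow_mnr (g : Gh K) (A : τ → τ → I → K) : powR τ R g *ᵥ mnr A = mnr fun t s => R g *ᵥ A t s := by
  funext i
  have h1 : (Matrix.of fun t s => (R g *ᵥ A t s) (i t)) = fun t => ∑ x, R g (i t) x • fun s => A t s x := by
    ext t s
    rw [of_apply, Finset.sum_apply]
    rfl
  show _ = det (Matrix.of fun t s => (R g *ᵥ A t s) (i t))
  rw [h1]
  have h2 := (detRowAlternating (R := K) (n := τ)).toMultilinearMap.map_sum
    (fun t x => R g (i t) x • fun s => A t s x)
  refine Eq.trans ?_ h2.symm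
  rw [mulVec, dotProduct]
  refine Finset.sum_congr rfl fun j _ => ?_
  rw [MultilinearMap.map_smul_univ, powR_apply, smul_eq_mul]
  rfl

omit [Fintype I] [DecidableEq I] in
theorem map_mnr (s : K →+* K) (A : τ → τ → I → K) : (fun i => s (mnr A i)) = mnr fun t u i => s (A t u i) := by
  funext i
  exact RingHom.map_det s _

variable {W : Type*} [AddCommGroup W] [Module K W] {Λ : Type*}

variable (τ) in
/-- the set of the minors of a family of linear maps -/
def PX (φ : Λ → W →ₗ[K] (I → K)) : Set ((τ → I) → K) :=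
  {v | ∃ (b : τ → W) (l : τ → Λ), v = mnr fun t s => φ (l t) (b s)}

variable {φ : Λ → W →ₗ[K] (I → K)}

theorem PX_stab {y : Gh K} (θ : W → W) (π : Λ → Λ) (h : ∀ l w, R y *ᵥ φ l w = φ (π l) (θ w)) :
    ∀ v ∈ PX τ φ, powR τ R y *ᵥ v ∈ PX τ φ := by
  rintro _ ⟨b, l, rfl⟩
  refine ⟨fun s => θ (b s), fun t => π (l t), ?_⟩
  rw [pow_mnr]
  simp only [h]

omit [Fintype I] [DecidableEq I] in
theorem PX_frob {s : K →+* K} (θ : W → W) (π : Λ → Λ) (h : ∀ l w, φ l w = fun i => s (φ (π l) (θ w) i)) :
    ∀ v ∈ PX τ φ, ∃ v' ∈ PX τ φ, v = fun i => s (v' i) := by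
  rintro _ ⟨b, l, rfl⟩
  refine ⟨_, ⟨fun s => θ (b s), fun t => π (l t), rfl⟩, ?_⟩
  rw [map_mnr]
  congr 1
  funext t u
  exact h _ _

omit [DecidableEq I] in
/-- non-vanishing of the minors -/
theorem PX_ne [Finite Λ] (W0 : Submodule K W) [FiniteDimensional K W0] (hd : finrank K W0 = Fintype.card τ)
    (hinj : ∀ w ∈ W0, (∀ l, φ l w = 0) → w = 0) : ∃ v ∈ PX τ φ, v ≠ 0 := by
  classical
  let f : Λ × I → Dual K W0 := fun x => (LinearMap.proj x.2) ∘ₗ φ x.1 ∘ₗ W0.subtype
  have hspan : Submodule.span K (Set.range f) = ⊤ := by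
    rw [eq_top_iff]
    intro g _
    refine mem_span_of_iInf_ker_le_ker fun w hw => ?_
    have h1 : (w : W) = 0 := hinj w w.2 fun l => funext fun i => by
      have h2 := (Submodule.mem_iInf _).1 hw (l, i)
      exact h2
    rw [show w = 0 from Subtype.ext h1]
    exact zero_mem _
  obtain ⟨S, hS, hsp, hli⟩ := exists_linearIndependent K (Set.range f)
  rw [hspan] at hsp
  let B : Basis S K (Dual K W0) := Basis.mk hli (by rw [Subtype.range_coe, hsp])
  have : Fintype S := FiniteDimensional.fintypeBasisIndex B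
  have hc : Fintype.card τ = Fintype.card S := by
    rw [← finrank_eq_card_basis B, Subspace.dual_finrank_eq, hd]
  let e : τ ≃ S := Fintype.equivOfCardEq hc
  choose x hx using fun t : τ => hS (e t).2
  let b : τ → W0 := fun s => (Module.evalEquiv K W0).symm (B.coord (e s))
  refine ⟨_, ⟨fun s => b s, fun t => (x t).1, rfl⟩, fun h0 => ?_⟩
  have h1 := congrFun h0 fun t => (x t).2
  have h2 : (Matrix.of fun t s => φ (x t).1 (b s) (x t).2) = (1 : Matrix τ τ K) := by
    ext t s
    have h3 : φ (x t).1 (b s) (x t).2 = f (x t) (b s) := rfl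
    have h4 : f (x t) = B (e t) := by rw [hx t, Basis.mk_apply]
    rw [of_apply, h3, h4, Module.apply_evalEquiv_symm_apply, Basis.coord_apply, B.repr_self, Finsupp.single_apply, one_apply]
    by_cases hts : t = s
    · rw [if_pos hts, if_pos (by rw [hts])]
    · rw [if_neg hts, if_neg fun h => hts (e.injective h)]
  have h5 : det (Matrix.of fun t s => φ (x t).1 (b s) (x t).2) = 0 := h1
  rw [h2, det_one] at h5
  exact one_ne_zero h5

theorem unst_PX (hne : ∃ v ∈ PX τ φ, v ≠ 0) (g : Gh K) (l : E)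
    (h : ∀ (b : τ → W) (m : τ → Λ) (i : τ → I), det (Matrix.of fun t s => (R g⁻¹ *ᵥ φ (m t) (b s)) (i t)) ≠ 0 →
      0 < ∑ t, bf l (cv (c (i t)))) :
    Unst (fun i : τ → I => ∑ t, c (i t)) (powR τ R) (PX τ φ) := by
  refine ⟨hne, g, l, ?_⟩
  rintro _ ⟨b, m, rfl⟩ i hi
  rw [pow_mnr] at hi
  rw [cv_sum, map_sum]
  exact h b m i hi

/-- adapted spanning families -/
theorem sum_le_of_det (f : τ → W →ₗ[K] K) (b b' : τ → W) (N : Submodule K W) (hN : ∀ t, ∀ w ∈ N, f t w = 0)
    (hsp : ∀ w, w ∈ Submodule.span K (Set.range b') ⊔ N) (n lv : τ → ℝ) (hn : ∀ t s, f t (b' s) ≠ 0 → n s ≤ lv t)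
    (hd : det (Matrix.of fun t s => f t (b s)) ≠ 0) : ∑ s, n s ≤ ∑ t, lv t := by
  have h1 : ∀ s, ∃ P : τ → K, ∀ t, f t (b s) = ∑ u, f t (b' u) * P u := by
    intro s
    obtain ⟨y, hy, z, hz, e⟩ := Submodule.mem_sup.1 (hsp (b s))
    obtain ⟨P, rfl⟩ := (Submodule.mem_span_range_iff_exists_fun K).1 hy
    refine ⟨P, fun t => ?_⟩
    rw [← e, map_add, hN t z hz, add_zero, map_sum]
    exact Finset.sum_congr rfl fun u _ => by rw [map_smul, smul_eq_mul, mul_comm]
  choose P hP using h1
  have h2 : (Matrix.of fun t s => f t (b s)) = (Matrix.of fun t u => f t (b' u)) * Matrix.of fun u s => P s u := by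
    ext t s
    rw [mul_apply, of_apply, hP]
    rfl
  rw [h2, det_mul] at hd
  have h3 := left_ne_zero_of_mul hd
  rw [det_apply] at h3
  obtain ⟨π, -, hπ⟩ := Finset.exists_ne_zero_of_sum_ne_zero h3
  have h4 : ∏ s, f (π s) (b' s) ≠ 0 := fun h0 => hπ (by
    have h5 : ∏ s, (Matrix.of fun t u => f t (b' u)) (π s) s = 0 := h0
    rw [h5, smul_zero])
  rw [Finset.prod_ne_zero_iff] at h4
  rw [← Equiv.sum_comp π lv]
  exact Finset.sum_le_sum fun s _ => hn _ _ (h4 s (Finset.mem_univ s))

/-- dual families -/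
theorem dual_of_det (f : τ → W →ₗ[K] K) (b : τ → W) (hd : det (Matrix.of fun t s => f t (b s)) ≠ 0) (u : τ) :
    ∃ w ∈ Submodule.span K (Set.range b), ∀ t, f t w = if t = u then 1 else 0 := by
  set A : Matrix τ τ K := Matrix.of fun t s => f t (b s) with hA
  refine ⟨∑ s, A⁻¹ s u • b s, Submodule.sum_mem _ fun s _ =>
    Submodule.smul_mem _ _ (Submodule.subset_span ⟨s, rfl⟩), fun t => ?_⟩
  have h1 := congrFun (congrFun (mul_nonsing_inv A (isUnit_iff_ne_zero.2 hd)) t) u
  rw [one_apply, mul_apply] at h1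
  rw [← h1, map_sum]
  exact Finset.sum_congr rfl fun s _ => by rw [map_smul, smul_eq_mul, mul_comm]; rfl

theorem sep_of_det [FiniteDimensional K W] (hdim : finrank K W = Fintype.card τ) (f : τ → W →ₗ[K] K) (b : τ → W)
    (hd : det (Matrix.of fun t s => f t (b s)) ≠ 0) {w : W} (hw : ∀ t, f t w = 0) : w = 0 := by
  have h1 : Function.Surjective (LinearMap.pi f) := by
    rw [← LinearMap.range_eq_top, eq_top_iff]
    intro v _
    rw [pi_eq_sum_univ' v]
    refine Submodule.sum_mem _ fun u _ => Submodule.smul_mem _ _ ?_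
    obtain ⟨y, -, hy⟩ := dual_of_det f b hd u
    exact ⟨y, funext fun t => by rw [LinearMap.pi_apply, hy, Pi.single_apply]⟩
  have h2 := (LinearMap.injective_iff_surjective_of_finrank_eq_finrank
    (by rw [hdim, finrank_fintype_fun_eq_card])).2 h1
  apply h2
  rw [map_zero]
  exact funext hw

end

section
variable {I : Type*} [Fintype I] [DecidableEq I] {c : I → Fin 7 → ℤ} {R : Gh K →* Matrix I I K}

/-- the minors of a subspace -/
def SX (W : Submodule K (I → K)) : Set ((Fin (finrank K W) → I) → K) := PX (Fin (finrank K W)) fun _ : Unit => W.subtype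

/-- **unstable subspaces** -/
theorem unst_sub (W : Submodule K (I → K)) (g : Gh K) (l : E)
    (h : ∀ i : Fin (finrank K W) → I, (∀ w ∈ W, (∀ t, (R g⁻¹ *ᵥ w) (i t) = 0) → w = 0) →
      (∀ u, ∃ w ∈ W, ∀ t, (R g⁻¹ *ᵥ w) (i t) = if t = u then 1 else 0) → 0 < ∑ t, bf l (cv (c (i t)))) :
    Unst (fun i : Fin (finrank K W) → I => ∑ t, c (i t)) (powR _ R) (SX W) := by
  refine unst_PX (PX_ne ⊤ (by rw [finrank_top, Fintype.card_fin]) fun w _ hw => Subtype.ext (hw ())) g l
    fun b m i hd => ?_
  let f : Fin (finrank K W) → W →ₗ[K] K := fun t => (LinearMap.proj (i t)) ∘ₗ (toLin' (R g⁻¹)) ∘ₗ W.subtype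
  refine h i (fun w hw h0 => ?_) fun u => ?_
  · exact congrArg Subtype.val (sep_of_det (by rw [Fintype.card_fin]) f b hd (w := ⟨w, hw⟩) h0)
  · obtain ⟨w, -, hw⟩ := dual_of_det f b hd u
    exact ⟨w, w.2, hw⟩

theorem SX_stab {W : Submodule K (I → K)} {y : Gh K} (h : ∀ w ∈ W, R y *ᵥ w ∈ W) :
    ∀ v ∈ SX W, powR _ R y *ᵥ v ∈ SX W :=
  PX_stab (fun w : W => ⟨R y *ᵥ w, h w w.2⟩) id fun _ _ => rfl

omit [Fintype I] [DecidableEq I] in
theorem SX_frob {W : Submodule K (I → K)} {s : K →+* K} (h : ∀ w ∈ W, ∃ w' ∈ W, w = fun i => s (w' i)) :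
    ∀ v ∈ SX W, ∃ v' ∈ SX W, v = fun i => s (v' i) := by
  choose θ h1 h2 using h
  exact PX_frob (fun w : W => ⟨θ w w.2, h1 w w.2⟩) id fun _ w => h2 w w.2

end

end Cfsg.Agent.E7P.Kf
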