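import Cfsg.Agent.E7P.Kf.Abs
import Cfsg.Agent.R2.T1.Inf.Tor

/-!
# S5932: the real weight space of `E₇` (helper48)

Vectors are written in the basis of the fundamental weights.  `bf` is the invariant form, `rv r`, `wv s` are the roots
and the weights of the 56-dimensional module, `sr i` the simple reflections.
-/

set_option autoImplicit false
set_option maxRecDepth 100000

namespace Cfsg.Agent.E7P.Kf

open Cfsg Cfsg.Lie
open Cfsg.Agent.ChevalleyStructure.RootVec Cfsg.Agent.ChevalleyStructure.RootVecTab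
open Cfsg.Agent.H943.E7V.Block (D1 rho)
open Cfsg.Agent.R2.T1

/-- the real weight space -/
abbrev E : Type := Fin 7 → ℝ

/-- twice the inverse of the Cartan matrix -/
def iC (i j : ℕ) : ℤ := ([[4, 4, 6, 8, 6, 4, 2], [4, 7, 8, 12, 9, 6, 3], [6, 8, 12, 16, 12, 8, 4], [8, 12, 16, 24, 18, 12, 6],
  [6, 9, 12, 18, 15, 10, 5], [4, 6, 8, 12, 10, 8, 4], [2, 3, 4, 6, 5, 4, 3]].getD i []).getD j 0

/-- the invariant form -/
noncomputable def bf : E →ₗ[ℝ] E →ₗ[ℝ] ℝ :=
  LinearMap.mk₂ ℝ (fun x y => ∑ i : Fin 7, x i * ∑ j : Fin 7, ((iC i j : ℤ) : ℝ) / 2 * y j)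
    (fun x x' y => by simp only [Pi.add_apply, add_mul, Finset.sum_add_distrib])
    (fun c x y => by simp only [Pi.smul_apply, smul_eq_mul, Finset.mul_sum, mul_assoc])
    (fun x y y' => by simp only [Pi.add_apply, mul_add, Finset.sum_add_distrib])
    (fun c x y => by
      simp only [Pi.smul_apply, smul_eq_mul, Finset.mul_sum]
      exact Finset.sum_congr rfl fun i _ => Finset.sum_congr rfl fun j _ => by ring)

theorem bf_def (x y : E) : bf x y = ∑ i : Fin 7, x i * ∑ j : Fin 7, ((iC i j : ℤ) : ℝ) / 2 * y j := rfl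

theorem bf_expl (x y : E) : bf x y =
    x 0 * (2 * y 0 + 2 * y 1 + 3 * y 2 + 4 * y 3 + 3 * y 4 + 2 * y 5 + y 6) +
    x 1 * (2 * y 0 + 7 / 2 * y 1 + 4 * y 2 + 6 * y 3 + 9 / 2 * y 4 + 3 * y 5 + 3 / 2 * y 6) +
    x 2 * (3 * y 0 + 4 * y 1 + 6 * y 2 + 8 * y 3 + 6 * y 4 + 4 * y 5 + 2 * y 6) +
    x 3 * (4 * y 0 + 6 * y 1 + 8 * y 2 + 12 * y 3 + 9 * y 4 + 6 * y 5 + 3 * y 6) +
    x 4 * (3 * y 0 + 9 / 2 * y 1 + 6 * y 2 + 9 * y 3 + 15 / 2 * y 4 + 5 * y 5 + 5 / 2 * y 6) +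
    x 5 * (2 * y 0 + 3 * y 1 + 4 * y 2 + 6 * y 3 + 5 * y 4 + 4 * y 5 + 2 * y 6) +
    x 6 * (y 0 + 3 / 2 * y 1 + 2 * y 2 + 3 * y 3 + 5 / 2 * y 4 + 2 * y 5 + 3 / 2 * y 6) := by
  rw [bf_def]
  simp only [Fin.sum_univ_seven, iC]
  norm_num

theorem bf_sq (x : E) : bf x x = ((x 1 - x 2) / 2) ^ 2 + ((x 1 + x 2) / 2) ^ 2 + ((x 1 + x 2) / 2 + x 3) ^ 2 +
    ((x 1 + x 2) / 2 + x 3 + x 4) ^ 2 + ((x 1 + x 2) / 2 + x 3 + x 4 + x 5) ^ 2 +
    ((x 1 + x 2) / 2 + x 3 + x 4 + x 5 + x 6) ^ 2 +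
    2 * (x 0 + x 1 + 3 / 2 * x 2 + 2 * x 3 + 3 / 2 * x 4 + x 5 + x 6 / 2) ^ 2 := by
  rw [bf_expl]
  ring

theorem bf_symm (x y : E) : bf x y = bf y x := by
  rw [bf_expl, bf_expl]
  ring

theorem bf_pd : PD bf where
  symm := bf_symm
  pos x hx := by
    by_contra hle
    rw [not_lt, bf_sq] at hle
    apply hx
    have a1 := sq_nonneg ((x 1 - x 2) / 2)
    have a2 := sq_nonneg ((x 1 + x 2) / 2)
    have a3 := sq_nonneg ((x 1 + x 2) / 2 + x 3)
    have a4 := sq_nonneg ((x 1 + x 2) / 2 + x 3 + x 4)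
    have a5 := sq_nonneg ((x 1 + x 2) / 2 + x 3 + x 4 + x 5)
    have a6 := sq_nonneg ((x 1 + x 2) / 2 + x 3 + x 4 + x 5 + x 6)
    have a7 := sq_nonneg (x 0 + x 1 + 3 / 2 * x 2 + 2 * x 3 + 3 / 2 * x 4 + x 5 + x 6 / 2)
    have b1 : (x 1 - x 2) / 2 = 0 := pow_eq_zero_iff (two_ne_zero) |>.1 (by linarith)
    have b2 : (x 1 + x 2) / 2 = 0 := pow_eq_zero_iff (two_ne_zero) |>.1 (by linarith)
    have b3 : (x 1 + x 2) / 2 + x 3 = 0 := pow_eq_zero_iff (two_ne_zero) |>.1 (by linarith)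
    have b4 : (x 1 + x 2) / 2 + x 3 + x 4 = 0 := pow_eq_zero_iff (two_ne_zero) |>.1 (by linarith)
    have b5 : (x 1 + x 2) / 2 + x 3 + x 4 + x 5 = 0 := pow_eq_zero_iff (two_ne_zero) |>.1 (by linarith)
    have b6 : (x 1 + x 2) / 2 + x 3 + x 4 + x 5 + x 6 = 0 := pow_eq_zero_iff (two_ne_zero) |>.1 (by linarith)
    have b7 : x 0 + x 1 + 3 / 2 * x 2 + 2 * x 3 + 3 / 2 * x 4 + x 5 + x 6 / 2 = 0 :=
      pow_eq_zero_iff (two_ne_zero) |>.1 (by linarith)
    funext i
    fin_cases i <;> simp <;> linarith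
  cont := by
    simp only [bf_sq]
    fun_prop

/-- integral vectors -/
def cv (c : Fin 7 → ℤ) : E := fun i => (c i : ℝ)

theorem cv_add (c d : Fin 7 → ℤ) : cv (c + d) = cv c + cv d := by
  funext i; simp [cv]

theorem cv_neg (c : Fin 7 → ℤ) : cv (-c) = - cv c := by
  funext i; simp [cv]

theorem cv_sub (c d : Fin 7 → ℤ) : cv (c - d) = cv c - cv d := by
  funext i; simp [cv]

theorem cv_zero : cv 0 = 0 := by
  funext i; simp [cv]

theorem cv_zsmul (m : ℤ) (c : Fin 7 → ℤ) : cv (m • c) = (m : ℝ) • cv c := by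
  funext i; simp [cv]

theorem cv_nsmul (m : ℕ) (c : Fin 7 → ℤ) : cv (m • c) = (m : ℝ) • cv c := by
  funext i; simp [cv]

theorem cv_sum {ι : Type*} (s : Finset ι) (c : ι → Fin 7 → ℤ) : cv (∑ t ∈ s, c t) = ∑ t ∈ s, cv (c t) := by
  funext i; simp [cv]

theorem cv_inj {c d : Fin 7 → ℤ} (h : cv c = cv d) : c = d := by
  funext i
  exact Int.cast_injective (α := ℝ) (congrFun h i)

/-- the labels of a root -/
def rc (r : ℕ) : Fin 7 → ℤ := fun i => chevE7.cartan i r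

/-- the labels of a weight -/
def wc (s : D1) : Fin 7 → ℤ := fun i => chevE8.cartan i (nn s)

/-- the roots -/
def rv (r : ℕ) : E := cv (rc r)

/-- the weights -/
def wv (s : D1) : E := cv (wc s)

theorem chk_iC : ∀ r < 126, ∀ i < 7, ((List.range 7).map fun j => iC i j * chevE7.cartan j r).sum = 2 * rt chevE7 r i := by
  decide +kernel

theorem sum7 (f : ℕ → ℤ) : ((List.range 7).map f).sum = ∑ j : Fin 7, f j := by
  simp [List.range_succ, Fin.sum_univ_seven, add_assoc]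

theorem bf_rv (x : E) {r : ℕ} (hr : r < 126) : bf x (rv r) = ∑ i : Fin 7, x i * (rt chevE7 r i : ℝ) := by
  rw [bf_def]
  refine Finset.sum_congr rfl fun i _ => ?_
  congr 1
  have h := chk_iC r hr i i.2
  rw [sum7] at h
  have h2 : ((∑ j : Fin 7, iC i j * chevE7.cartan j r : ℤ) : ℝ) = ((2 * rt chevE7 r i : ℤ) : ℝ) := by rw [h]
  push_cast at h2
  have h3 : ∑ j : Fin 7, ((iC i j : ℤ) : ℝ) / 2 * rv r j =
      (∑ j : Fin 7, ((iC i j : ℤ) : ℝ) * (chevE7.cartan j r : ℝ)) / 2 := by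
    rw [Finset.sum_div]
    exact Finset.sum_congr rfl fun j _ => by
      show _ * ((chevE7.cartan j r : ℤ) : ℝ) = _
      ring
  rw [h3, h2]
  ring

/-- the pairing of a root with an integral vector -/
def pc (r : ℕ) (c : Fin 7 → ℤ) : ℤ := ∑ i : Fin 7, rt chevE7 r i * c i

theorem bf_cv_rv (c : Fin 7 → ℤ) {r : ℕ} (hr : r < 126) : bf (cv c) (rv r) = (pc r c : ℝ) := by
  rw [bf_rv _ hr, pc]
  push_cast
  exact Finset.sum_congr rfl fun i _ => mul_comm _ _

theorem rt_simple : ∀ i < 7, ∀ j < 7, rt chevE7 (chevE7.simple i) j = if j = i then 1 else 0 := by decide +kernel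

/-- the simple roots -/
def al (i : Fin 7) : E := rv (chevE7.simple i)

theorem bf_al (x : E) (i : Fin 7) : bf x (al i) = x i := by
  rw [al, bf_rv _ (simple_lt7 i i.2), Finset.sum_eq_single i]
  · rw [rt_simple i i.2 i i.2, if_pos rfl]; simp
  · intro j _ hj
    rw [rt_simple i i.2 j j.2, if_neg fun h => hj (Fin.ext h)]; simp
  · intro h; exact absurd (Finset.mem_univ _) h

theorem cartan_self : ∀ i < 7, chevE7.cartan i (chevE7.simple i) = 2 := by decide +kernel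

theorem al_self (i : Fin 7) : al i i = 2 := by
  show ((chevE7.cartan i (chevE7.simple i) : ℤ) : ℝ) = 2
  rw [cartan_self i i.2]; norm_num

/-- the simple reflections -/
noncomputable def sr (i : Fin 7) : E →ₗ[ℝ] E where
  toFun x := x - x i • al i
  map_add' x y := by rw [Pi.add_apply, add_smul]; abel
  map_smul' c x := by rw [Pi.smul_apply, smul_eq_mul, RingHom.id_apply, smul_sub, smul_smul]

theorem sr_apply (i : Fin 7) (x : E) : sr i x = x - x i • al i := rfl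

theorem sr_iso (i : Fin 7) (x y : E) : bf (sr i x) (sr i y) = bf x y := by
  rw [sr_apply, sr_apply]
  simp only [map_sub, map_smul, LinearMap.sub_apply, LinearMap.smul_apply, smul_eq_mul]
  rw [bf_al, bf_al, bf_symm (al i) y, bf_al, al_self]
  ring

theorem sr_sr (i : Fin 7) (x : E) : sr i (sr i x) = x := by
  rw [sr_apply, sr_apply, Pi.sub_apply, Pi.smul_apply, al_self, smul_eq_mul]
  module

theorem sr_cv (i : Fin 7) (c : Fin 7 → ℤ) : sr i (cv c) = cv (c - c i • rc (chevE7.simple i)) := by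
  rw [sr_apply, cv_sub, cv_zsmul]
  rfl

theorem chk_refl : ∀ i < 7, ∀ r < 126, ∀ j < 7, chevE7.cartan j (chevE7.reflectRoot i r) =
    chevE7.cartan j r - chevE7.cartan i r * chevE7.cartan j (chevE7.simple i) := by decide +kernel

theorem sr_rv (i : Fin 7) {r : ℕ} (hr : r < 126) : sr i (rv r) = rv (chevE7.reflectRoot i r) := by
  rw [rv, sr_cv, rv]
  congr 1
  funext j
  exact (chk_refl i i.2 r hr j j.2).symm

theorem chk_pos : ∀ r < 126, (63 ≤ r ↔ chevE7.IsPosRoot r) ∧ (63 ≤ r → ∀ j < 7, 0 ≤ rt chevE7 r j) ∧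
    (r < 63 → ∀ j < 7, rt chevE7 r j ≤ 0) := by decide +kernel

theorem chk_neg : ∀ r < 126, ∀ j < 7, chevE7.cartan j (125 - r) = - chevE7.cartan j r := by decide +kernel

theorem rc_neg {r : ℕ} (hr : r < 126) : rc (125 - r) = - rc r := by
  funext j; exact chk_neg r hr j j.2

theorem rv_neg {r : ℕ} (hr : r < 126) : rv (125 - r) = - rv r := by rw [rv, rc_neg hr, cv_neg, rv]

/-- dominant vectors -/
def Dom (x : E) : Prop := ∀ i, 0 ≤ x i

theorem Dom.pos {x : E} (h : Dom x) {r : ℕ} (hr : r < 126) (h63 : 63 ≤ r) : 0 ≤ bf x (rv r) := by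
  rw [bf_rv _ hr]
  exact Finset.sum_nonneg fun i _ => mul_nonneg (h i) (by exact_mod_cast (chk_pos r hr).2.1 h63 i i.2)

theorem Dom.neg {x : E} (h : Dom x) {r : ℕ} (h63 : r < 63) : bf x (rv r) ≤ 0 := by
  rw [bf_rv _ (by omega)]
  exact Finset.sum_nonpos fun i _ => mul_nonpos_of_nonneg_of_nonpos (h i)
    (by exact_mod_cast (chk_pos r (by omega)).2.2 h63 i i.2)

theorem rt_top : ∀ j < 7, 1 ≤ rt chevE7 125 j := by decide +kernel

/-- the highest root -/
theorem Dom.top_pos {x : E} (h : Dom x) (h0 : x ≠ 0) : 0 < bf x (rv 125) := by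
  rw [bf_rv _ (by norm_num)]
  obtain ⟨i, hi⟩ := Function.ne_iff.1 h0
  refine Finset.sum_pos' (fun j _ => mul_nonneg (h j) ?_) ⟨i, Finset.mem_univ _, mul_pos ((h i).lt_of_ne' hi) ?_⟩
  · have := rt_top j j.2
    exact_mod_cast (by omega)
  · have := rt_top i i.2
    exact_mod_cast (by omega)

theorem wc_add {r : ℕ} (hr : r < 126) {a b : D1} {c : ℤ} (h : mv r (nn b) = some (nn a, c)) :
    wc a = wc b + rc r := by
  funext i
  exact cart_add hr h i.2

/-- the weights span -/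
theorem ext_wv {M : Type*} [AddCommGroup M] [Module ℝ M] {f g : E →ₗ[ℝ] M} (h : ∀ s, f (wv s) = g (wv s)) : f = g := by
  apply LinearMap.pi_ext'
  intro i
  refine LinearMap.ext_ring ?_
  have h1 : (Pi.single i 1 : E) = ∑ k : Fin 7, (((bi.getD i []).getD k 0 : ℤ) : ℝ) • wv (bd k) := by
    funext j
    have h2 := bi_bw i i.2 j j.2
    rw [sum7] at h2
    rw [Finset.sum_apply]
    have h3 : ∑ k : Fin 7, ((((bi.getD i []).getD k 0 : ℤ) : ℝ) • wv (bd k)) j =
        ((∑ k : Fin 7, (bi.getD i []).getD k 0 * chevE8.cartan j (bw.getD k 0) : ℤ) : ℝ) := by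
      push_cast
      rfl
    rw [h3, h2, Pi.single_apply]
    by_cases hij : j = i
    · rw [if_pos hij, if_pos (by rw [hij])]; simp
    · rw [if_neg hij, if_neg fun h => hij (Fin.ext h.symm)]; simp
  simp only [LinearMap.comp_apply, LinearMap.coe_single]
  rw [h1, map_sum, map_sum]
  exact Finset.sum_congr rfl fun k _ => by rw [map_smul, map_smul, h]

/-- the products of simple reflections -/
noncomputable def wL (l : List (Fin 7)) : E →ₗ[ℝ] E := l.foldr (fun i w => sr i ∘ₗ w) LinearMap.id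

theorem wL_nil (x : E) : wL [] x = x := rfl

theorem wL_cons (i : Fin 7) (l : List (Fin 7)) (x : E) : wL (i :: l) x = sr i (wL l x) := rfl

theorem wL_iso (l : List (Fin 7)) (x y : E) : bf (wL l x) (wL l y) = bf x y := by
  induction l with
  | nil => rfl
  | cons i l ih => rw [wL_cons, wL_cons, sr_iso, ih]

theorem wL_append (l l' : List (Fin 7)) (x : E) : wL (l ++ l') x = wL l (wL l' x) := by
  induction l with
  | nil => rfl
  | cons i l ih => rw [List.cons_append, wL_cons, wL_cons, ih]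

end Cfsg.Agent.E7P.Kf
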